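import Cfsg.Agent.H255.Cop
import Cfsg.Agent.Tits.Rigid
import Cfsg.Agent.FixOdd.Defs

/-!
# Coprime automorphism groups on a building

`T : AutAct Δ K`: every automorphism of `K` acts on the building `Δ` of `K`. `r`-groups `A` of automorphisms, `r` prime
to `|K|`.
-/

set_option autoImplicit false

namespace Cfsg.Agent.H255.Bld

open Cfsg.Agent.Tits.Core Cfsg.Agent.Tits.Core.Bldg Cfsg.Agent.Tits.OppRes Cfsg.Agent.H255.Cop
open Cfsg.Agent.FixOdd (Tw)

variable {I : Type*} {M : CoxeterMatrix I} {W : Type*} [Group W] {cs : CoxeterSystem M W} {C : Type*} {Δ : Bldg cs C}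
  {K : Type*} [Group K] [MulAction K C]

/-- another chamber at the same distance -/
theorem exists_other [Cox cs] {F : Set C} {x y : C}
    (hy : ∀ i, ∃ f₁ ∈ F, ∃ f₂ ∈ F, f₁ ≠ f₂ ∧ Δ.δ y f₁ = cs.simple i ∧ Δ.δ y f₂ = cs.simple i) (h : x ≠ y) :
    ∃ f ∈ F, f ≠ y ∧ Δ.δ x f = Δ.δ x y := by
  have hw : Δ.δ x y ≠ 1 := fun h1 => h ((Δ.eq_one x y).1 h1)
  obtain ⟨i, hi⟩ := cs.exists_rightDescent_of_ne_one hw
  obtain ⟨f₁, hF₁, f₂, hF₂, hne, h1, h2⟩ := hy i
  have hne' : ∀ f, Δ.δ y f = cs.simple i → f ≠ y := by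
    rintro f hf rfl
    have h3 := (Δ.eq_one f f).2 rfl
    rw [h3] at hf
    have := cs.length_simple i
    rw [← hf, cs.length_one] at this
    exact absurd this (by norm_num)
  rcases Δ.step x y f₁ i h1 with h3 | h3
  · rcases Δ.step x y f₂ i h2 with h4 | h4
    · exfalso
      apply hne
      refine Tits.Rigid.eq_of_short (Δ := Δ) (j := i) h3 h4 ?_ ?_
      · rw [mul_assoc, cs.simple_mul_simple_self, mul_one]
        exact hi
      · exact Tits.Rigid.mem_Pan_Res (Δ.mem_Pan_trans (Δ.mem_Pan_symm (Or.inr h1)) (Or.inr h2))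
    · exact ⟨f₂, hF₂, hne' _ h2, h4⟩
  · exact ⟨f₁, hF₁, hne' _ h1, h3⟩

section Uniq

variable [Cox cs] (hth : Δ.Thick) (hsa : Δ.StrongAct K)

include hth hsa

theorem uniq (t t' : Tw Δ K) (h : t.τ = t'.τ) (x : C) : t.θ x = t'.θ x := by
  by_contra hne
  obtain ⟨f, -, hf, hd⟩ := exists_other (Δ := Δ) (F := Set.univ) (x := t.θ x) (y := t'.θ x) (fun i => by
    obtain ⟨a, b, hab, h1, h2⟩ := hth (t'.θ x) i
    exact ⟨a, trivial, b, trivial, hab, h1, h2⟩) hne
  obtain ⟨g, hg1, hg2⟩ := hsa.trans (t.θ x) (t'.θ x) (t.θ x) f hd.symm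
  have h1 : t.τ (t.τ⁻¹ g) = g := MulAut.apply_inv_self _ _ _
  have h2 : t.θ (t.τ⁻¹ g • x) = t.θ x := by rw [t.θ_smul, h1, hg1]
  have h3 := t.θ.injective h2
  have h4 : t'.θ (t.τ⁻¹ g • x) = f := by rw [t'.θ_smul, ← h, h1, hg2]
  rw [h3] at h4
  exact hf h4.symm

end Uniq

/-- the action of the automorphisms of `K` on the building -/
structure AutAct (Δ : Bldg cs C) (K : Type*) [Group K] [MulAction K C] where
  tw : MulAut K → Tw Δ K
  τ : ∀ x, (tw x).τ = x

namespace AutAct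

variable (T : AutAct Δ K)

/-- the action on the chambers -/
def θ (a : MulAut K) : Equiv.Perm C := (T.tw a).θ

theorem θ_smul (a : MulAut K) (g : K) (x : C) : T.θ a (g • x) = a g • T.θ a x := by
  have := (T.tw a).θ_smul g x
  rwa [T.τ] at this

theorem δ_θ (a : MulAut K) (x y : C) : Δ.δ (T.θ a x) (T.θ a y) = (T.tw a).φ (Δ.δ x y) := (T.tw a).δ_θ x y

variable [Cox cs] (hth : Δ.Thick) (hsa : Δ.StrongAct K)

include hth hsa

theorem θ_mul (a b : MulAut K) (x : C) : T.θ (a * b) x = T.θ a (T.θ b x) := by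
  let t : Tw Δ K :=
    { τ := a * b
      θ := (T.tw a).θ * (T.tw b).θ
      φ := (T.tw b).φ.trans (T.tw a).φ
      σ := (T.tw a).σ * (T.tw b).σ
      φ_simple := fun i => by
        rw [MulEquiv.trans_apply, (T.tw b).φ_simple, (T.tw a).φ_simple, Equiv.Perm.mul_apply]
      δ_θ := fun x y => by
        rw [Equiv.Perm.mul_apply, Equiv.Perm.mul_apply, (T.tw a).δ_θ, (T.tw b).δ_θ, MulEquiv.trans_apply]
      θ_smul := fun g x => by
        rw [Equiv.Perm.mul_apply, Equiv.Perm.mul_apply, (T.tw b).θ_smul, (T.tw a).θ_smul, T.τ, T.τ,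
          MulAut.mul_apply] }
  exact uniq hth hsa (T.tw (a * b)) t (T.τ _) x

theorem θ_conj (g : K) (x : C) : T.θ (MulAut.conj g) x = g • x := by
  let t : Tw Δ K :=
    { τ := MulAut.conj g
      θ := MulAction.toPerm g
      φ := MulEquiv.refl _
      σ := 1
      φ_simple := fun i => rfl
      δ_θ := fun x y => hsa.iso g x y
      θ_smul := fun k x => by
        rw [MulAction.toPerm_apply, MulAction.toPerm_apply, MulAut.conj_apply, smul_smul, smul_smul,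
          inv_mul_cancel_right] }
  exact uniq hth hsa (T.tw (MulAut.conj g)) t (T.τ _) x

theorem θ_one (x : C) : T.θ 1 x = x := by
  have := T.θ_conj hth hsa 1 x
  rwa [map_one, one_smul] at this

/-- the homomorphism -/
def hom : MulAut K →* Equiv.Perm C where
  toFun := T.θ
  map_one' := Equiv.ext fun x => T.θ_one hth hsa x
  map_mul' a b := Equiv.ext fun x => T.θ_mul hth hsa a b x

/-- the type permutation is multiplicative -/
theorem σ_mul [Nonempty C] (a b : MulAut K) : (T.tw (a * b)).σ = (T.tw a).σ * (T.tw b).σ := by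
  ext i
  apply Cox.inj (cs := cs)
  obtain ⟨x⟩ := (inferInstance : Nonempty C)
  obtain ⟨y, hy⟩ := Tits.OppRes.exists_delta Δ x (cs.simple i)
  have h1 := T.δ_θ (a * b) x y
  rw [T.θ_mul hth hsa, T.θ_mul hth hsa, T.δ_θ, T.δ_θ, hy] at h1
  rw [Equiv.Perm.mul_apply, ← (T.tw a).φ_simple, ← (T.tw b).φ_simple, h1, (T.tw (a * b)).φ_simple]

theorem σ_one [Nonempty C] : (T.tw 1).σ = 1 := by
  have := T.σ_mul hth hsa 1 1
  rw [mul_one] at this
  exact mul_eq_left.1 this.symm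

theorem σ_pow [Nonempty C] (a : MulAut K) (n : ℕ) : (T.tw (a ^ n)).σ = (T.tw a).σ ^ n := by
  induction n with
  | zero => rw [pow_zero, pow_zero, T.σ_one hth hsa]
  | succ n ih => rw [pow_succ, pow_succ, T.σ_mul hth hsa, ih]

end AutAct

section Main

variable [Cox cs] (hth : Δ.Thick) (hsa : Δ.StrongAct K) [Finite K] {r : ℕ} [hrf : Fact r.Prime]
  (hr : ¬ r ∣ Nat.card K) {A : Subgroup (MulAut K)} (hA : IsPGroup r A) (T : AutAct Δ K)

/-- `x` is fixed by `A` -/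
def FixedBy (T : AutAct Δ K) (A : Subgroup (MulAut K)) (x : C) : Prop := ∀ a ∈ A, T.θ a x = x

include hth hsa hA in
theorem exists_fixedBy (S : Set C) (hS : ∀ a ∈ A, ∀ x ∈ S, T.θ a x ∈ S) (hc : ¬ r ∣ Nat.card S) :
    ∃ x ∈ S, FixedBy T A x := by
  let act : MulAction A S :=
    { smul := fun a x => ⟨T.θ a.1 x.1, hS a.1 a.2 x.1 x.2⟩
      one_smul := fun x => Subtype.ext (T.θ_one hth hsa x.1)
      mul_smul := fun a b x => Subtype.ext (T.θ_mul hth hsa a.1 b.1 x.1) }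
  obtain ⟨x, hx⟩ := hA.nonempty_fixed_point_of_prime_not_dvd_card (α := S) hc
  exact ⟨x.1, x.2, fun a ha => congrArg Subtype.val (hx ⟨a, ha⟩)⟩

/-- orbits of subgroups -/
theorem card_dvd (H : Subgroup K) (S : Set C) {y : C} (hy : y ∈ S) (h1 : ∀ h ∈ H, ∀ x ∈ S, h • x ∈ S)
    (h2 : ∀ z ∈ S, ∃ h ∈ H, h • y = z) : Nat.card S ∣ Nat.card K := by
  have h3 : S = MulAction.orbit H y := by
    ext z
    constructor
    · intro hz
      obtain ⟨h, hh, hz⟩ := h2 z hz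
      exact ⟨⟨h, hh⟩, hz⟩
    · rintro ⟨h, rfl⟩
      exact h1 h.1 h.2 y hy
  rw [h3]
  refine dvd_trans ?_ (Subgroup.card_subgroup_dvd_card H)
  rw [Nat.card_congr (MulAction.orbitEquivQuotientStabilizer H y)]
  exact Subgroup.index_dvd_card _

include hth hsa hr hA in
theorem exists_fixed_chamber [Nonempty C] : ∃ x, FixedBy T A x := by
  obtain ⟨x₀⟩ := (inferInstance : Nonempty C)
  obtain ⟨x, -, hx⟩ := exists_fixedBy hth hsa hA T Set.univ (fun _ _ _ _ => trivial) (fun h => hr (h.trans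
    (card_dvd ⊤ Set.univ (Set.mem_univ x₀) (fun _ _ _ _ => trivial) (fun z _ => by
      obtain ⟨g, h1, -⟩ := hsa.trans x₀ x₀ z z (by rw [(Δ.eq_one x₀ x₀).2 rfl, (Δ.eq_one z z).2 rfl])
      exact ⟨g, trivial, h1⟩))))
  exact ⟨x, hx⟩

variable {T} (hσ : ∀ a ∈ A, ∀ x y, Δ.δ (T.θ a x) (T.θ a y) = Δ.δ x y)

include hth hsa hr hA hσ in
theorem exists_fixed_dist {x : C} (hx : FixedBy T A x) (w : W) : ∃ y, FixedBy T A y ∧ Δ.δ x y = w := by
  obtain ⟨y₀, hy₀⟩ := Tits.OppRes.exists_delta Δ x w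
  obtain ⟨y, hy, h⟩ := exists_fixedBy hth hsa hA T {y | Δ.δ x y = w} (fun a ha y hy => by
    have h1 := hσ a ha x y
    rw [hx a ha] at h1
    exact h1.trans hy) (fun h => hr (h.trans
    (card_dvd (MulAction.stabilizer K x) {y | Δ.δ x y = w} (y := y₀) hy₀ (fun g hg y hy => by
      have h1 := hsa.iso g x y
      rw [MulAction.mem_stabilizer_iff.1 hg] at h1
      exact h1.trans hy) (fun z hz => by
      obtain ⟨g, h1, h2⟩ := hsa.trans x y₀ x z (hy₀.trans hz.symm)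
      exact ⟨g, h1, h2⟩))))
  exact ⟨y, h, hy⟩

include hth hsa hr hA in
theorem exists_g {x y f : C} (hx : FixedBy T A x) (hy : FixedBy T A y) (hf : FixedBy T A f)
    (h : Δ.δ x y = Δ.δ x f) : ∃ g ∈ fix A, g • x = x ∧ g • y = f := by
  obtain ⟨g, hg1, hg2⟩ := hsa.trans x y x f h
  obtain ⟨k, hk, h1⟩ := exists_fixed_coset hr hA (MulAction.stabilizer K x ⊓ MulAction.stabilizer K y)
    (fun a ha g hg => by
      obtain ⟨h1, h2⟩ := Subgroup.mem_inf.1 hg
      rw [MulAction.mem_stabilizer_iff] at h1 h2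
      refine Subgroup.mem_inf.2 ⟨?_, ?_⟩
      · rw [MulAction.mem_stabilizer_iff]
        have := T.θ_smul a g x
        rw [h1, hx a ha] at this
        exact this.symm
      · rw [MulAction.mem_stabilizer_iff]
        have := T.θ_smul a g y
        rw [h2, hy a ha] at this
        exact this.symm) g (fun a ha => by
      refine Subgroup.mem_inf.2 ⟨?_, ?_⟩
      · rw [MulAction.mem_stabilizer_iff, mul_smul]
        have := T.θ_smul a g x
        rw [hg1, hx a ha] at this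
        rw [← this, inv_smul_eq_iff, hg1]
      · rw [MulAction.mem_stabilizer_iff, mul_smul]
        have := T.θ_smul a g y
        rw [hg2, hy a ha, hf a ha] at this
        rw [← this, inv_smul_eq_iff, hg2])
  obtain ⟨h2, h3⟩ := Subgroup.mem_inf.1 h1
  rw [MulAction.mem_stabilizer_iff, mul_smul, inv_smul_eq_iff] at h2 h3
  exact ⟨k, hk, by rw [h2, hg1], by rw [h3, hg2]⟩

variable (star : ∀ x, FixedBy T A x → ∀ i, ∃ y, FixedBy T A y ∧ ∃ z, FixedBy T A z ∧ y ≠ z ∧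
  Δ.δ x y = cs.simple i ∧ Δ.δ x z = cs.simple i)

include hth hsa hr hA star in
theorem fixed_of_fixed {z : MulAut K} (hz : ∀ a ∈ A, z * a = a * z) (hzf : ∀ g ∈ fix A, z g = g) {x : C}
    (hx : FixedBy T A x) : T.θ z x = x := by
  by_contra hne
  have hzx : FixedBy T A (T.θ z x) := by
    intro a ha
    rw [← T.θ_mul hth hsa, ← hz a ha, T.θ_mul hth hsa, hx a ha]
  obtain ⟨f, hf, hfne, hd⟩ := exists_other (Δ := Δ) (F := {y | FixedBy T A y}) (x := x) (y := T.θ z x)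
    (fun i => by
      obtain ⟨y, hy, z, hz, h1, h2, h3⟩ := star _ hzx i
      exact ⟨y, hy, z, hz, h1, h2, h3⟩) (fun h => hne h.symm)
  obtain ⟨g, hg, h1, h2⟩ := exists_g hth hsa hr hA hx hzx hf hd.symm
  have h3 := T.θ_smul z g x
  rw [hzf g hg, h1, h2] at h3
  exact hfne h3.symm

include hth hsa hr hA star in
theorem exists_ne_one [Nonempty C] [Nonempty I] : ∃ g ∈ fix A, g ≠ 1 := by
  obtain ⟨x, hx⟩ := exists_fixed_chamber hth hsa hr hA T
  obtain ⟨i⟩ := (inferInstance : Nonempty I)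
  obtain ⟨y, hy, z, hz, hne, h1, h2⟩ := star x hx i
  obtain ⟨g, hg, -, h3⟩ := exists_g hth hsa hr hA hx hy hz (h1.trans h2.symm)
  refine ⟨g, hg, ?_⟩
  rintro rfl
  rw [one_smul] at h3
  exact hne h3

/-- **The building argument.** -/
theorem main [Nonempty C] [Nonempty I] (hth : Δ.Thick) (hsa : Δ.StrongAct K) (hr : ¬ r ∣ Nat.card K)
    (hA : IsPGroup r A) (hσ : ∀ a ∈ A, ∀ x y, Δ.δ (T.θ a x) (T.θ a y) = Δ.δ x y)
    (star : ∀ x, FixedBy T A x → ∀ i, ∃ y, FixedBy T A y ∧ ∃ z, FixedBy T A z ∧ y ≠ z ∧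
      Δ.δ x y = cs.simple i ∧ Δ.δ x z = cs.simple i)
    (pan : ∀ z : MulAut K, (∀ a ∈ A, z * a = a * z) → (∀ g ∈ fix A, z g = g) → ∀ m, ¬ r ∣ m → z ^ m = 1 →
      (∀ x y, Δ.δ (T.θ z x) (T.θ z y) = Δ.δ x y) → ∀ x, FixedBy T A x → (∀ y, FixedBy T A y → T.θ z y = y) →
      ∀ i, ∀ y ∈ Δ.Pan i x, T.θ z y = y) :
    (∃ g ∈ fix A, g ≠ 1) ∧ ∀ z : MulAut K, (∀ a ∈ A, z * a = a * z) → ∀ m, ¬ r ∣ m → z ^ m = 1 →
      (∀ g ∈ fix A, z g = g) → z = 1 := by
  refine ⟨exists_ne_one hth hsa hr hA star, ?_⟩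
  intro z hz m hm hzm hzf
  have hfix : ∀ y, FixedBy T A y → T.θ z y = y := fun y hy => fixed_of_fixed hth hsa hr hA star hz hzf hy
  obtain ⟨x, hx⟩ := exists_fixed_chamber hth hsa hr hA T
  obtain ⟨d, hd, hxd⟩ := exists_fixed_dist hth hsa hr hA hσ hx (wJ cs Set.univ)
  have hφ : ∀ w, (T.tw z).φ w = w := by
    intro w
    obtain ⟨y, hy, hxy⟩ := exists_fixed_dist hth hsa hr hA hσ hx w
    have h1 := T.δ_θ z x y
    rw [hfix x hx, hfix y hy, hxy] at h1
    exact h1.symm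
  have hiso : ∀ x y, Δ.δ (T.θ z x) (T.θ z y) = Δ.δ x y := fun x y => by rw [T.δ_θ, hφ]
  have h1 : ∀ y ∈ Δ.Res Set.univ x, T.θ z y = y :=
    Tits.Rigid.rigid hth (φ := T.θ z) (ψ := fun y => y) (fun a _ b _ => hiso a b) (fun a _ b _ => rfl)
      (fun i _ y hy => pan z hz hzf m hm hzm hiso x hx hfix i y hy) hxd (hfix d hd)
  have h2 : ∀ y, T.θ z y = y := fun y => h1 y (by rw [Bldg.Res_univ]; trivial)
  have h3 : FaithfulSMul K C := hsa.faithful
  ext k
  apply h3.eq_of_smul_eq_smul (α := C)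
  intro y
  have h4 := T.θ_smul z k y
  rw [h2, h2] at h4
  rw [MulAut.one_apply]
  exact h4.symm

end Main

end Cfsg.Agent.H255.Bld
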