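import Cfsg.Agent.H255.Panel
import Cfsg.Agent.H255.ZP
import Cfsg.Agent.Solvable.UniqueOrderP
import Cfsg.Agent.H334.Q8Case
import Cfsg.Agent.SuzukiRankOne.Assembly

/-!
# Panels in characteristic 2: the third fixed point
-/

set_option autoImplicit false

namespace Cfsg.Agent.H255.Panel

open Cfsg.Agent.FixBN Cfsg.Agent.H255.Cop

variable {Om : Type*} {U : Om → Subgroup (Equiv.Perm Om)}

/-- conjugation by an element of `famStab U`, as an automorphism of the group generated by the root groups -/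
def kap (U : Om → Subgroup (Equiv.Perm Om)) : famStab U →* MulAut ↥(gen U) :=
  (Subgroup.normalizerMonoidHom (gen U)).comp (Subgroup.inclusion (famStab_le_normalizer U))

theorem kap_apply (c : famStab U) (g : gen U) : ((kap U c g : gen U) : Equiv.Perm Om) = c * g * (c : Equiv.Perm Om)⁻¹ :=
  rfl

/-- the automorphisms induced by a subgroup of `famStab U` -/
def img (U : Om → Subgroup (Equiv.Perm Om)) (A : Subgroup (Equiv.Perm Om)) : Subgroup (MulAut ↥(gen U)) :=
  (A.subgroupOf (famStab U)).map (kap U)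

theorem isPGroup_img {r : ℕ} {A : Subgroup (Equiv.Perm Om)} (hA : IsPGroup r A) : IsPGroup r (img U A) :=
  (hA.comap_of_injective _ (famStab U).subtype_injective).map _

theorem mem_fix_img {A : Subgroup (Equiv.Perm Om)} (hAU : A ≤ famStab U) {g : gen U} :
    g ∈ fix (img U A) ↔ ∀ a ∈ A, a * (g : Equiv.Perm Om) = g * a := by
  constructor
  · intro h a ha
    have h1 := h _ ⟨⟨a, hAU ha⟩, ha, rfl⟩
    have h2 := congrArg (fun x : gen U => (x : Equiv.Perm Om)) h1
    change a * g * a⁻¹ = g at h2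
    exact mul_inv_eq_iff_eq_mul.1 h2
  · rintro h _ ⟨⟨a, ha⟩, haA, rfl⟩
    apply Subtype.ext
    change a * g * a⁻¹ = g
    rw [h a haA, mul_inv_cancel_right]

/-- fixed points in cosets of a stable subgroup -/
theorem exists_commuting [Finite Om] {r : ℕ} [Fact r.Prime] (hr : ¬ r ∣ Nat.card ↥(gen U))
    {A : Subgroup (Equiv.Perm Om)} (hA : IsPGroup r A) (hAU : A ≤ famStab U) {y z y' z' : Om}
    (hfix : ∀ a ∈ A, a y = y ∧ a z = z ∧ a y' = y' ∧ a z' = z')
    (hex : ∃ g ∈ gen U, g y = y' ∧ g z = z') :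
    ∃ g ∈ gen U, g y = y' ∧ g z = z' ∧ ∀ a ∈ A, a * g = g * a := by
  obtain ⟨g, hg, h1, h2⟩ := hex
  let D : Subgroup (gen U) :=
    { carrier := {k | (k : Equiv.Perm Om) y = y ∧ (k : Equiv.Perm Om) z = z}
      one_mem' := ⟨rfl, rfl⟩
      mul_mem' := fun {a b} ha hb => ⟨by
        change (a : Equiv.Perm Om) ((b : Equiv.Perm Om) y) = y
        rw [hb.1, ha.1], by
        change (a : Equiv.Perm Om) ((b : Equiv.Perm Om) z) = z
        rw [hb.2, ha.2]⟩
      inv_mem' := fun {a} ha => ⟨by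
        change (a : Equiv.Perm Om)⁻¹ y = y
        rw [Equiv.Perm.inv_eq_iff_eq, ha.1], by
        change (a : Equiv.Perm Om)⁻¹ z = z
        rw [Equiv.Perm.inv_eq_iff_eq, ha.2]⟩ }
  have hinv : ∀ {a : Equiv.Perm Om} {x : Om}, a x = x → a⁻¹ x = x := fun {a x} h => by
    rw [Equiv.Perm.inv_eq_iff_eq, h]
  obtain ⟨k, hk, h3⟩ := exists_fixed_coset hr (isPGroup_img (U := U) hA) D (by
    rintro _ ⟨⟨a, ha⟩, haA, rfl⟩ k hk
    have ha' : a ∈ A := haA
    obtain ⟨e1, e2, -, -⟩ := hfix a ha'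
    refine ⟨?_, ?_⟩
    · change a (k.1 (a⁻¹ y)) = y
      rw [hinv e1, hk.1, e1]
    · change a (k.1 (a⁻¹ z)) = z
      rw [hinv e2, hk.2, e2]) ⟨g, hg⟩ (by
    rintro _ ⟨⟨a, ha⟩, haA, rfl⟩
    have ha' : a ∈ A := haA
    obtain ⟨e1, e2, e3, e4⟩ := hfix a ha'
    refine ⟨?_, ?_⟩
    · change g⁻¹ (a (g (a⁻¹ y))) = y
      rw [hinv e1, h1, e3, Equiv.Perm.inv_eq_iff_eq, h1]
    · change g⁻¹ (a (g (a⁻¹ z))) = z
      rw [hinv e2, h2, e4, Equiv.Perm.inv_eq_iff_eq, h2])
  refine ⟨k, k.2, ?_, ?_, (mem_fix_img hAU).1 hk⟩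
  · have h4 : g⁻¹ (k.1 y) = y := h3.1
    rw [Equiv.Perm.inv_eq_iff_eq] at h4
    rw [h4, h1]
  · have h4 : g⁻¹ (k.1 z) = z := h3.2
    rw [Equiv.Perm.inv_eq_iff_eq] at h4
    rw [h4, h2]

/-- An element of `famStab U` commuting with the root groups is trivial. -/
theorem RG.eq_one (h : RG U) {z : Equiv.Perm Om} (hz : z ∈ famStab U) (hc : ∀ g ∈ gen U, z * g = g * z) : z = 1 := by
  apply Equiv.ext
  intro y
  change z y = y
  by_contra hne
  -- `U (z y) = z U(y) z⁻¹ = U y`
  obtain ⟨a, ha, ha'⟩ := h.three y (z y)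
  obtain ⟨g, hg, h1⟩ := h.reg y a (z y) ha hne
  have h2 := (hz y g).1 hg
  rw [hc g (le_iSup U y hg), mul_inv_cancel_right] at h2
  have h3 := h.fix _ _ h2
  rw [← h1] at h3
  exact ha' (by rw [← h1]; exact (g.injective h3).symm)

section Two

variable [Finite Om] (h : RG U) (hU : ∀ y, IsPGroup 2 (U y))
  (hD : ∀ a b : Om, a ≠ b → ∀ g ∈ gen U, g a = a → g b = b → Odd (orderOf g))

include h hU

theorem odd_card (y : Om) : Odd (Nat.card Om) := by
  have h1 := h.card_ne y
  have h2 : Nat.card Om = Nat.card {x : Om // x ≠ y} + 1 := by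
    classical
    have e : Om ≃ Option {x : Om // x ≠ y} := (Equiv.optionSubtypeNe y).symm
    rw [Nat.card_congr e, Finite.card_option]
  have h3 : Fact (Nat.Prime 2) := ⟨Nat.prime_two⟩
  obtain ⟨n, hn⟩ := IsPGroup.iff_card.1 (hU y)
  have h4 : n ≠ 0 := by
    rintro rfl
    rw [pow_zero] at hn
    obtain ⟨a, ha, -⟩ := h.three y y
    obtain ⟨b, hb, hba⟩ := h.three y a
    have : Finite (U y) := inferInstance
    have h5 : Nat.card {x : Om // x ≠ y} = 1 := by rw [h1, hn]
    obtain ⟨hs, -⟩ := Nat.card_eq_one_iff_unique.1 h5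
    exact hba (congrArg Subtype.val (hs.elim (⟨b, hb⟩ : {x : Om // x ≠ y}) ⟨a, ha⟩))
  rw [h2, h1, hn]
  refine Even.add_one ?_
  exact (Nat.even_pow.2 ⟨even_two, h4⟩)

include hD

theorem mem_of_two {g : Equiv.Perm Om} (hg : g ∈ gen U) {k : ℕ} (hk : g ^ 2 ^ k = 1) {ω : Om} (hω : g ω = ω) :
    g ∈ U ω := by
  obtain ⟨a, ha, -⟩ := h.three ω ω
  have h1 : g a ≠ ω := fun h2 => ha (g.injective (h2.trans hω.symm))
  obtain ⟨u, hu, hua⟩ := h.reg ω a (g a) ha h1
  set d := u⁻¹ * g with hd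
  have hdg : d ∈ gen U := mul_mem (inv_mem (le_iSup U ω hu)) hg
  have hdω : d ω = ω := by
    change u⁻¹ (g ω) = ω
    rw [hω, Equiv.Perm.inv_eq_iff_eq, h.fix ω u hu]
  have hda : d a = a := by
    change u⁻¹ (g a) = a
    rw [← hua]
    exact u.symm_apply_apply a
  have hodd := hD ω a ha.symm d hdg hdω hda
  have key : ∀ n : ℕ, ∃ v ∈ U ω, g ^ n = v * d ^ n := by
    intro n
    induction n with
    | zero => exact ⟨1, one_mem _, by simp⟩
    | succ n ih =>
      obtain ⟨v, hv, hv'⟩ := ih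
      have h2 : d ^ n ∈ famStab U := pow_mem (h.gen_le hdg) n
      have h3 : (d ^ n) ω = ω := by
        clear hv' h2
        induction n with
        | zero => rfl
        | succ n ih => rw [pow_succ, Equiv.Perm.mul_apply, hdω, ih]
      have h4 := (h2 ω u).1 hu
      rw [h3] at h4
      refine ⟨v * (d ^ n * u * (d ^ n)⁻¹), mul_mem hv h4, ?_⟩
      have h5 : g = u * d := by rw [hd]; group
      rw [pow_succ, hv', pow_succ]
      conv_lhs => rw [h5]
      group
  obtain ⟨v, hv, h2⟩ := key (2 ^ k)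
  rw [hk] at h2
  have h3 : v = (d ^ 2 ^ k)⁻¹ := eq_inv_of_mul_eq_one_left h2.symm
  have h4 : (d ^ 2 ^ k) a = a := by
    have : ∀ n, (d ^ n) a = a := by
      intro n
      induction n with
      | zero => rfl
      | succ n ih => rw [pow_succ, Equiv.Perm.mul_apply, hda, ih]
    exact this _
  have h5 : v = 1 := h.free ω v hv a ha (by rw [h3, Equiv.Perm.inv_eq_iff_eq, h4])
  rw [h5, one_mul] at h2
  have h6 : orderOf d ∣ 2 ^ k := orderOf_dvd_of_pow_eq_one h2.symm
  have h7 : orderOf d = 1 := by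
    have h8 : Nat.Coprime (orderOf d) (2 ^ k) := Nat.Coprime.pow_right _ (Nat.coprime_two_right.2 hodd)
    exact Nat.eq_one_of_dvd_coprimes h8 dvd_rfl h6
  have h8 : d = 1 := orderOf_eq_one_iff.1 h7
  have h9 : g = u := by
    have : g = u * d := by rw [hd]; group
    rw [this, h8, mul_one]
  rw [h9]
  exact hu

/-- **The third fixed point.** -/
theorem exists_three {r : ℕ} [Fact r.Prime] (hr : ¬ r ∣ Nat.card ↥(gen U))
    {A : Subgroup (Equiv.Perm Om)} (hA : IsPGroup r A) (hAU : A ≤ famStab U) (p : Om) :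
    ∃ a b c : Om, a ≠ b ∧ a ≠ c ∧ b ≠ c ∧ ∀ g ∈ A, g a = a ∧ g b = b ∧ g c = c := by
  obtain ⟨y, z, hyz, hfix⟩ := h.exists_two hr hA p
  obtain ⟨g, hg, h1, h2⟩ := h.trans2 hyz hyz.symm
  obtain ⟨g, hg, h1, h2, hgA⟩ := exists_commuting hr hA hAU (y := y) (z := z) (y' := z) (z' := y)
    (fun a ha => ⟨(hfix a ha).1, (hfix a ha).2, (hfix a ha).2, (hfix a ha).1⟩) ⟨g, hg, h1, h2⟩
  have h2p : Fact (Nat.Prime 2) := ⟨Nat.prime_two⟩
  -- the odd part
  have hfin : 0 < orderOf g := orderOf_pos g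
  obtain ⟨k, m, hm, hkm⟩ := Nat.exists_eq_two_pow_mul_odd hfin.ne'
  set c := g ^ m with hc
  have hck : c ^ 2 ^ k = 1 := by rw [hc, ← pow_mul, mul_comm, ← hkm, pow_orderOf_eq_one]
  have hcg : c ∈ gen U := pow_mem hg m
  have hcA : ∀ a ∈ A, a * c = c * a := fun a ha => by
    have : Commute a g := hgA a ha
    exact this.pow_right m
  have hswap : c y = z ∧ c z = y := by
    obtain ⟨j, rfl⟩ := hm
    have h3 : ∀ j : ℕ, (g ^ (2 * j)) y = y ∧ (g ^ (2 * j)) z = z := by
      intro j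
      induction j with
      | zero => exact ⟨rfl, rfl⟩
      | succ j ih =>
        have e : g ^ (2 * (j + 1)) = g ^ (2 * j) * (g * g) := by rw [← sq, ← pow_add]; congr 1
        rw [e, Equiv.Perm.mul_apply, Equiv.Perm.mul_apply, Equiv.Perm.mul_apply, Equiv.Perm.mul_apply, h1, h2, h1]
        exact ih
    have e : g ^ (2 * j + 1) = g * g ^ (2 * j) := by rw [pow_succ']
    rw [hc, e, Equiv.Perm.mul_apply, Equiv.Perm.mul_apply, (h3 j).1, (h3 j).2]
    exact ⟨h1, h2⟩
  -- `c` fixes a point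
  have hcp : IsPGroup 2 (Subgroup.zpowers c) := by
    rintro ⟨_, n, rfl⟩
    refine ⟨k, Subtype.ext ?_⟩
    change (c ^ n) ^ 2 ^ k = 1
    rw [← zpow_natCast, ← zpow_mul, mul_comm, zpow_mul, zpow_natCast, hck, one_zpow]
  obtain ⟨ω, -, hω⟩ := exists_fixed hcp Set.univ (fun _ _ _ _ => trivial) (by
    rw [Nat.card_univ]
    intro h3
    exact (Nat.not_even_iff_odd.2 (odd_card h hU p)) (even_iff_two_dvd.2 h3))
  have hcω := hω c (Subgroup.mem_zpowers c)
  have hcU := mem_of_two h hU hD hcg hck hcω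
  have hωy : ω ≠ y := by
    rintro rfl
    rw [hswap.1] at hcω
    exact hyz hcω.symm
  have hωz : ω ≠ z := by
    rintro rfl
    rw [hswap.2] at hcω
    exact hyz hcω
  refine ⟨y, z, ω, hyz, hωy.symm, hωz.symm, fun a ha => ⟨(hfix a ha).1, (hfix a ha).2, ?_⟩⟩
  by_contra hne
  have h3 : c (a ω) = a ω := by
    have := congrArg (fun k : Equiv.Perm Om => k ω) (hcA a ha)
    change a (c ω) = c (a ω) at this
    rw [← this, hcω]
  have h4 := h.free ω c hcU (a ω) hne h3
  rw [h4] at hswap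
  exact hyz hswap.1

end Two

/-! ### Root groups with one involution -/

/-- odd order automorphisms of a cyclic 2-group are trivial -/
theorem aut_cyclic {D : Type*} [Group D] [Finite D] (hD : IsPGroup 2 D) (hc : IsCyclic D) {r : ℕ} (hr : r.Prime)
    (hr2 : r ≠ 2) {α : MulAut D} {k : ℕ} (hk : α ^ r ^ k = 1) : α = 1 := by
  have : Fact (Nat.Prime 2) := ⟨Nat.prime_two⟩
  obtain ⟨n, hn⟩ := IsPGroup.iff_card.mp hD
  have h1 : IsPGroup 2 (MulAut D) := by
    apply IsPGroup.of_card (n := n - 1)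
    rw [IsCyclic.card_mulAut, hn]
    rcases Nat.eq_zero_or_pos n with h | h
    · subst h; simp
    · rw [Nat.totient_prime_pow Nat.prime_two h]; simp
  obtain ⟨l, hl⟩ := h1 α
  have h2 : Nat.Coprime (r ^ k) (2 ^ l) := Nat.Coprime.pow _ _ ((Nat.coprime_primes hr Nat.prime_two).2 hr2)
  exact orderOf_eq_one_iff.1 (Nat.eq_one_of_dvd_coprimes h2 (orderOf_dvd_of_pow_eq_one hk)
    (orderOf_dvd_of_pow_eq_one hl))

open QuaternionGroup in
/-- odd order automorphisms of large quaternion groups are trivial -/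
theorem aut_quaternion {m : ℕ} (hm : 2 ≤ m) {r : ℕ} (hr : r.Prime)
    (hr2 : r ≠ 2) {α : MulAut (QuaternionGroup (2 ^ m))} {k : ℕ} (hk : α ^ r ^ k = 1) : α = 1 := by
  have hne : NeZero (2 ^ m) := ⟨by positivity⟩
  have h2m : 4 ≤ 2 ^ m := by
    calc 4 = 2 ^ 2 := by norm_num
      _ ≤ 2 ^ m := Nat.pow_le_pow_right (by norm_num) hm
  -- `α` maps `a 1` to a power of `a 1`
  obtain ⟨u, hu⟩ : ∃ u, α (a 1) = a u := by
    rcases h : α (a 1) with j | j
    · exact ⟨j, rfl⟩
    · exfalso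
      have h3 : orderOf (α (a (1 : ZMod (2 * 2 ^ m)))) = 2 * 2 ^ m := by
        rw [MulEquiv.orderOf_eq, orderOf_a_one]
      rw [h, orderOf_xa] at h3
      omega
  have h1 : ∀ i, α (a i) = a (i * u) := by
    intro i
    have h3 : (a i : QuaternionGroup (2 ^ m)) = (a 1) ^ i.val := by
      rw [a_one_pow, ZMod.natCast_zmod_val]
    have h4 : ∀ n : ℕ, (a u : QuaternionGroup (2 ^ m)) ^ n = a ((n : ZMod (2 * 2 ^ m)) * u) := by
      intro n
      induction n with
      | zero => rw [pow_zero, Nat.cast_zero, zero_mul, a_zero]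
      | succ n ih => rw [pow_succ, ih, a_mul_a, Nat.cast_succ, add_mul, one_mul]
    rw [h3, map_pow, hu, h4, ZMod.natCast_zmod_val]
  have h2 : ∀ N : ℕ, ∀ i, (α ^ N) (a i) = a (i * u ^ N) := by
    intro N
    induction N with
    | zero => intro i; rw [pow_zero, pow_zero, mul_one]; rfl
    | succ N ih => intro i; rw [pow_succ, MulAut.mul_apply, h1, ih, pow_succ, mul_assoc, mul_comm u]
  have hu1 : u ^ r ^ k = 1 := by
    have h3 := h2 (r ^ k) 1
    rw [hk, MulAut.one_apply, one_mul] at h3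
    injection h3 with h3
    exact h3.symm
  have hu2 : u = 1 := by
    have hrk : r ^ k ≠ 0 := pow_ne_zero _ hr.ne_zero
    obtain ⟨v, rfl⟩ : IsUnit u := IsUnit.of_pow_eq_one hu1 hrk
    have h3 : orderOf v ∣ r ^ k := by
      apply orderOf_dvd_of_pow_eq_one
      apply Units.ext
      rw [Units.val_pow_eq_pow_val, hu1, Units.val_one]
    have h4 : orderOf v ∣ 2 ^ m := by
      refine (orderOf_dvd_card).trans ?_
      rw [ZMod.card_units_eq_totient, ← pow_succ', Nat.totient_prime_pow Nat.prime_two (by omega)]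
      simp
    have h5 : Nat.Coprime (r ^ k) (2 ^ m) := Nat.Coprime.pow _ _ ((Nat.coprime_primes hr Nat.prime_two).2 hr2)
    have h6 := orderOf_eq_one_iff.1 (Nat.eq_one_of_dvd_coprimes h5 h3 h4)
    rw [h6, Units.val_one]
  subst hu2
  have h1' : ∀ i, α (a i) = a i := fun i => by rw [h1, mul_one]
  obtain ⟨c, hc⟩ : ∃ c, α (xa 0) = xa c := by
    rcases h : α (xa 0) with j | j
    · exfalso
      rw [← h1' j] at h
      exact absurd (α.injective h) (by simp)
    · exact ⟨j, rfl⟩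
  have h3 : ∀ i, α (xa i) = xa (c + i) := by
    intro i
    have : (xa i : QuaternionGroup (2 ^ m)) = xa 0 * a i := by rw [xa_mul_a, zero_add]
    rw [this, map_mul, hc, h1', xa_mul_a]
  have h4 : ∀ N : ℕ, (α ^ N) (xa 0) = xa ((N : ZMod (2 * 2 ^ m)) * c) := by
    intro N
    induction N with
    | zero => rw [pow_zero, Nat.cast_zero, zero_mul]; rfl
    | succ N ih => rw [pow_succ', MulAut.mul_apply, ih, h3, Nat.cast_succ, add_mul, one_mul, add_comm]
  have hc0 : c = 0 := by
    have h5 := h4 (r ^ k)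
    rw [hk, MulAut.one_apply] at h5
    have h6 : ((r ^ k : ℕ) : ZMod (2 * 2 ^ m)) * c = 0 := by
      injection h5 with h5
      exact h5.symm
    have h7 : IsUnit ((r ^ k : ℕ) : ZMod (2 * 2 ^ m)) := by
      rw [ZMod.isUnit_iff_coprime, ← pow_succ']
      exact Nat.Coprime.pow _ _ ((Nat.coprime_primes hr Nat.prime_two).2 hr2)
    exact (h7.mul_right_eq_zero).1 h6
  subst hc0
  ext x
  rw [MulAut.one_apply]
  rcases x with i | i
  · exact h1' i
  · rw [h3, zero_add]

section Unique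

variable [Finite Om] (h : RG U) (hU : ∀ y, IsPGroup 2 (U y))

include h hU

/-- If `gen U` has no two commuting involutions, `A` is trivial. -/
theorem trivial_of_unique (hu : ∀ x ∈ gen U, ∀ y ∈ gen U, x ≠ 1 → y ≠ 1 → x * x = 1 → y * y = 1 → x * y = y * x → x = y)
    {r : ℕ} [hrf : Fact r.Prime] (hr : ¬ r ∣ Nat.card ↥(gen U)) {A : Subgroup (Equiv.Perm Om)} (hA : IsPGroup r A)
    (hAU : A ≤ famStab U) {y z : Om} (hyz : y ≠ z) (hfix : ∀ a ∈ A, a y = y ∧ a z = z) : ∀ a ∈ A, a = 1 := by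
  have h2p : Fact (Nat.Prime 2) := ⟨Nat.prime_two⟩
  intro a ha
  have hcardQ := h.card_ne y
  have hnt : Nontrivial (U y) := by
    rw [← Finite.one_lt_card_iff_nontrivial, ← hcardQ, Finite.one_lt_card_iff_nontrivial]
    obtain ⟨c, hc, hcz⟩ := h.three y z
    exact ⟨⟨z, hyz.symm⟩, ⟨c, hc⟩, fun h => hcz (congrArg Subtype.val h).symm⟩
  have hr2 : r ≠ 2 := by
    rintro rfl
    apply hr
    have h1 : 2 ∣ Nat.card (U y) := by
      obtain ⟨n, hn, h1⟩ := (hU y).nontrivial_iff_card.1 hnt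
      rw [h1]
      exact dvd_pow_self 2 hn.ne'
    exact h1.trans (Subgroup.card_dvd_of_le (le_iSup U y))
  -- the unique involution
  have hUn : Solvable.UniqueOrderP.UniqueP 2 (U y) := by
    have hcn : Nontrivial (Subgroup.center (U y)) := (hU y).center_nontrivial
    have h1 : IsPGroup 2 (Subgroup.center (U y)) := (hU y).to_subgroup _
    obtain ⟨n, hn, h2⟩ := h1.nontrivial_iff_card.1 hcn
    obtain ⟨t, ht⟩ := exists_prime_orderOf_dvd_card' 2 (h2 ▸ dvd_pow_self 2 hn.ne')
    have ht1 : (t : U y) ≠ 1 := by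
      intro h3
      have : t = 1 := Subtype.ext h3
      rw [this, orderOf_one] at ht
      exact absurd ht (by norm_num)
    have ht2 : (t : U y) * t = 1 := by
      have h3 : t * t = 1 := by rw [← sq, ← ht, pow_orderOf_eq_one]
      exact congrArg Subtype.val h3
    have key : ∀ x : U y, x ≠ 1 → x ^ 2 = 1 → x = t := by
      intro x hx hx2
      rw [sq] at hx2
      have h3 := hu x.1 (le_iSup U y x.2) t.1.1 (le_iSup U y t.1.2) (fun h => hx (Subtype.ext h))
        (fun h => ht1 (Subtype.ext h)) (congrArg Subtype.val hx2) (congrArg Subtype.val ht2)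
        (congrArg Subtype.val (Subgroup.mem_center_iff.1 t.2 x))
      exact Subtype.ext h3
    intro x x' hx hx2 hx2'
    by_cases hx' : x' = 1
    · rw [hx']; exact one_mem _
    · rw [key x hx hx2, key x' hx' hx2']
      exact Subgroup.mem_zpowers _
  -- the automorphism induced by `a`
  have hnorm : ∀ g, g ∈ U y ↔ a * g * a⁻¹ ∈ U y := by
    intro g
    have h1 := (hAU ha) y g
    rwa [(hfix a ha).1] at h1
  let α : MulAut (U y) := (Subgroup.normalizerMonoidHom (U y)) ⟨a, Subgroup.mem_normalizer_iff.2 hnorm⟩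
  have hα : ∀ g : U y, ((α g : U y) : Equiv.Perm Om) = a * g * a⁻¹ := fun g => rfl
  obtain ⟨k, hk⟩ := hA ⟨a, ha⟩
  have hk' : a ^ r ^ k = 1 := congrArg Subtype.val hk
  have hαk : α ^ r ^ k = 1 := by
    change (Subgroup.normalizerMonoidHom (U y)) _ ^ _ = 1
    rw [← map_pow]
    have : (⟨a, Subgroup.mem_normalizer_iff.2 hnorm⟩ : Subgroup.normalizer (U y : Set (Equiv.Perm Om))) ^ r ^ k = 1 :=
      Subtype.ext hk'
    rw [this, map_one]
  have hα1 : α = 1 := by
    rcases Solvable.UniqueOrderP.cyclic_or_quaternion (hU y) hUn with hc | ⟨-, m, hm, ⟨e⟩⟩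
    · exact aut_cyclic (hU y) hc hrf.out hr2 hαk
    · have hcon : ∀ β : MulAut (QuaternionGroup (2 ^ m)), β = MulAut.congr e α → β = 1 → α = 1 := by
        rintro β rfl h1
        exact (MulAut.congr e).injective (by rw [h1, map_one])
      have hβk : (MulAut.congr e α) ^ r ^ k = 1 := by rw [← map_pow, hαk, map_one]
      rcases Nat.lt_or_ge m 2 with hm2 | hm2
      · have hm1 : m = 1 := by omega
        subst hm1
        refine hcon _ rfl ?_
        have h3 : ∀ β : MulAut (QuaternionGroup 2), β ^ r ^ k = 1 → β = 1 := by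
          intro β hβ
          rcases H334.Q8Case.mulAut_order β with h4 | h4
          · have hr3 : r ≠ 3 := by
              rintro rfl
              apply hr
              refine dvd_trans ?_ (h.card_dvd y)
              have h5 : Nat.card Om = Nat.card {x : Om // x ≠ y} + 1 := by
                classical
                have e : Om ≃ Option {x : Om // x ≠ y} := (Equiv.optionSubtypeNe y).symm
                rw [Nat.card_congr e, Finite.card_option]
              have h6 : Nat.card (QuaternionGroup 2) = 8 := by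
                rw [Nat.card_eq_fintype_card, QuaternionGroup.card]
              have h7 : Nat.card (U y) = 8 := by
                rw [Nat.card_congr e.toEquiv]
                exact h6
              rw [h5, hcardQ, h7]
              norm_num
            have h5 : Nat.Coprime (r ^ k) 3 :=
              Nat.Coprime.pow_left _ ((Nat.coprime_primes hrf.out Nat.prime_three).2 hr3)
            exact orderOf_eq_one_iff.1 (Nat.eq_one_of_dvd_coprimes h5 (orderOf_dvd_of_pow_eq_one hβ)
              (orderOf_dvd_of_pow_eq_one h4))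
          · have h5 : Nat.Coprime (r ^ k) 4 :=
              Nat.Coprime.pow_left _ (Nat.Coprime.pow_right 2 ((Nat.coprime_primes hrf.out Nat.prime_two).2 hr2))
            exact orderOf_eq_one_iff.1 (Nat.eq_one_of_dvd_coprimes h5 (orderOf_dvd_of_pow_eq_one hβ)
              (orderOf_dvd_of_pow_eq_one h4))
        exact h3 _ hβk
      · exact hcon _ rfl (aut_quaternion hm2 hrf.out hr2 hβk)
  -- `a` commutes with `U y`
  apply Equiv.ext
  intro ω
  rw [Equiv.Perm.one_apply]
  by_cases hω : ω = y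
  · rw [hω, (hfix a ha).1]
  · obtain ⟨u, hu, h1⟩ := h.reg y z ω hyz.symm hω
    have h2 := hα ⟨u, hu⟩
    rw [hα1] at h2
    have h3 : u * a = a * u := by
      have h4 : u = a * u * a⁻¹ := h2
      exact (mul_inv_eq_iff_eq_mul.1 h4.symm).symm
    have h4 : a (u z) = u (a z) := by
      have := congrArg (fun g : Equiv.Perm Om => g z) h3
      exact this.symm
    rw [← h1, h4, (hfix a ha).2]

end Unique

/-- the rank one groups in characteristic two -/
def EvenOne (L : Type*) [Group L] : Prop :=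
  (∃ (F : Type) (_ : Field F) (_ : Fintype F), (∃ n : ℕ, 2 ≤ n ∧ Fintype.card F = 2 ^ n) ∧
      Nonempty (L ≃* Matrix.ProjectiveSpecialLinearGroup (Fin 2) F)) ∨
    Lie.IsoSuzuki L ∨
    (∃ (F : Type) (_ : Field F) (_ : Fintype F) (n : ℕ), 2 ≤ n ∧ Fintype.card F = (2 ^ n) ^ 2 ∧
      Nonempty (L ≃* PSU 3 F (2 ^ n)))

end Cfsg.Agent.H255.Panel

namespace Cfsg.Agent.H255.Panel

open Cfsg.Agent.FixBN Cfsg.Agent.H255.Cop

universe u

variable {Om : Type u} {U : Om → Subgroup (Equiv.Perm Om)}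

/-- **Panels in characteristic two.** -/
theorem panelOK_two [Finite Om] (hZ : ∀ (L : Type u) [Group L] [IsSimpleGroup L], EvenOne L → ZP L)
    (h : RG U) (hU : ∀ y, IsPGroup 2 (U y))
    (hD : ∀ a b : Om, a ≠ b → ∀ g ∈ gen U, g a = a → g b = b → Odd (orderOf g)) (p : Om) : PanelOK U := by
  have h2p : Fact (Nat.Prime 2) := ⟨Nat.prime_two⟩
  intro r hrf hr A hA hAU
  refine ⟨exists_three h hU hD hr hA hAU p, ?_⟩
  intro z hzU hzA m hm hzm hzf hzg
  obtain ⟨y, y', hyy, hfix⟩ := h.exists_two hr hA p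
  by_cases hu : ∀ x ∈ gen U, ∀ y ∈ gen U, x ≠ 1 → y ≠ 1 → x * x = 1 → y * y = 1 → x * y = y * x → x = y
  · have hA1 := trivial_of_unique h hU hu hr hA hAU hyy hfix
    apply Equiv.ext
    intro ω
    exact hzf ω fun a ha => by rw [hA1 a ha]; rfl
  -- the rank one set-up
  obtain ⟨a, ha⟩ : ∃ a, a = y := ⟨y, rfl⟩
  have hnt : ∀ b, ∃ t ∈ U b, t ≠ 1 ∧ t * t = 1 := by
    intro b
    have hnt : Nontrivial (U b) := by
      rw [← Finite.one_lt_card_iff_nontrivial, ← h.card_ne b, Finite.one_lt_card_iff_nontrivial]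
      obtain ⟨c, hc, -⟩ := h.three b b
      obtain ⟨d, hd, hdc⟩ := h.three b c
      exact ⟨⟨c, hc⟩, ⟨d, hd⟩, fun h => hdc (congrArg Subtype.val h).symm⟩
    obtain ⟨n, hn, h2⟩ := (hU b).nontrivial_iff_card.1 hnt
    obtain ⟨t, ht⟩ := exists_prime_orderOf_dvd_card' 2 (h2 ▸ dvd_pow_self 2 hn.ne')
    refine ⟨t, t.2, ?_, ?_⟩
    · intro h3
      have : t = 1 := Subtype.ext h3
      rw [this, orderOf_one] at ht
      exact absurd ht (by norm_num)
    · have h3 : t * t = 1 := by rw [← sq, ← ht, pow_orderOf_eq_one]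
      exact congrArg Subtype.val h3
  obtain ⟨t, ht, ht1, htt⟩ := hnt y'
  have htg : t ∈ gen U := le_iSup U y' ht
  have hty : t y ≠ y := fun h1 => ht1 (h.free y' t ht y hyy h1)
  have hsmul : ∀ (g : gen U) (x : Om), g • x = (g : Equiv.Perm Om) x := fun _ _ => rfl
  have hS : Cfsg.IsRankOneSetup (gen U) Om y ⟨t, htg⟩ ((U y).subgroupOf (gen U)) :=
    { two_transitive := by
        rw [MulAction.is_two_pretransitive_iff]
        intro a b c d hab hcd
        obtain ⟨g, hg, h1, h2⟩ := h.trans2 hab hcd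
        exact ⟨⟨g, hg⟩, h1, h2⟩
      mul_self := Subtype.ext htt
      ne_one := fun h1 => ht1 (congrArg Subtype.val h1)
      not_mem := fun h1 => hty h1
      le := fun g hg => h.fix y _ hg
      conj_mem := by
        intro g hg x hx
        have h1 := (h.gen_le g.2 y x).1 hx
        have h2 : (g : Equiv.Perm Om) y = y := hg
        rw [h2] at h1
        exact h1
      inf_eq_bot := by
        rw [eq_bot_iff]
        rintro g ⟨hg1, hg2⟩
        exact Subtype.ext (h.free y g hg1 (t y) hty hg2)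
      sup_eq := by
        apply le_antisymm
        · refine sup_le (fun g hg => h.fix y _ hg) inf_le_left
        · intro g hg
          have hgy : (g : Equiv.Perm Om) y = y := hg
          have h1 : (g : Equiv.Perm Om) (t y) ≠ y := fun h1 => hty (g.1.injective (h1.trans hgy.symm))
          obtain ⟨u, hu, h2⟩ := h.reg y (t y) ((g : Equiv.Perm Om) (t y)) hty h1
          have h3 : g = ⟨u, le_iSup U y hu⟩ * ((⟨u, le_iSup U y hu⟩ : gen U)⁻¹ * g) := by group
          rw [h3]
          refine mul_mem (Subgroup.mem_sup_left hu) (Subgroup.mem_sup_right ⟨?_, ?_⟩)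
          · change u⁻¹ ((g : Equiv.Perm Om) y) = y
            rw [hgy, Equiv.Perm.inv_eq_iff_eq, h.fix y u hu]
          · change u⁻¹ ((g : Equiv.Perm Om) (t y)) = t y
            rw [← h2]
            exact u.symm_apply_apply _
      even_card := by
        obtain ⟨s, hs, hs1, hss⟩ := hnt y
        rw [even_iff_two_dvd]
        have h1 : orderOf (⟨⟨s, le_iSup U y hs⟩, hs⟩ : (U y).subgroupOf (gen U)) = 2 := by
          refine orderOf_eq_prime ?_ ?_
          · rw [sq]; exact Subtype.ext (Subtype.ext hss)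
          · intro h1
            exact hs1 (congrArg (fun x : (U y).subgroupOf (gen U) => ((x : gen U) : Equiv.Perm Om)) h1)
        rw [← h1]
        exact orderOf_dvd_natCard _
      odd_card := by
        rw [← Nat.not_even_iff_odd, even_iff_two_dvd]
        intro h1
        obtain ⟨d, hd⟩ := exists_prime_orderOf_dvd_card' 2 h1
        have h2 := hD y (t y) hty.symm ((d : gen U) : Equiv.Perm Om) d.1.2 d.2.1 d.2.2
        rw [Subgroup.orderOf_coe, Subgroup.orderOf_coe, hd] at h2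
        exact absurd h2 (by decide) }
  have h2 : ∃ x y : gen U, x ≠ 1 ∧ y ≠ 1 ∧ x ≠ y ∧ x * x = 1 ∧ y * y = 1 ∧ x * y = y * x := by
    push Not at hu
    obtain ⟨x, hx, x', hx', h1, h2, h3, h4, h5, h6⟩ := hu
    exact ⟨⟨x, hx⟩, ⟨x', hx'⟩, fun h => h1 (congrArg Subtype.val h), fun h => h2 (congrArg Subtype.val h),
      fun h => h6 (congrArg Subtype.val h), Subtype.ext h3, Subtype.ext h4, Subtype.ext h5⟩
  have hfaith : FaithfulSMul (gen U) Om := ⟨fun {g g'} h1 => Subtype.ext (Equiv.ext h1)⟩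
  obtain ⟨L, hLn, hLo, hLs, hL⟩ := SuzukiRankOne.Reduction.reduction hS h2
    (fun L => IsSimpleGroup L ∧ EvenOne L) (by
      intro L htL hQL hsimple hinv hfaith hSL h2L
      exact ⟨hsimple, SuzukiRankOne.Assembly.simple_case hSL h2L⟩)
  have hLtop : L = ⊤ := by
    have h3 : ∀ g : gen U, (g : Equiv.Perm Om) ∈ gen U → True := fun _ _ => trivial
    have h4 : ∀ y, ∀ g, ∀ hg : g ∈ U y, (⟨g, le_iSup U y hg⟩ : gen U) ∈ L := by
      intro y g hg
      obtain ⟨k, hk⟩ := hU y ⟨g, hg⟩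
      have hk' : g ^ 2 ^ k = 1 := congrArg Subtype.val hk
      rw [← QuotientGroup.eq_one_iff]
      have h5 : orderOf (QuotientGroup.mk (⟨g, le_iSup U y hg⟩ : gen U) : gen U ⧸ L) ∣ 2 ^ k := by
        apply orderOf_dvd_of_pow_eq_one
        rw [← QuotientGroup.mk_pow]
        have : (⟨g, le_iSup U y hg⟩ : gen U) ^ 2 ^ k = 1 := Subtype.ext hk'
        rw [this]
        rfl
      have h6 : orderOf (QuotientGroup.mk (⟨g, le_iSup U y hg⟩ : gen U) : gen U ⧸ L) ∣ L.index :=
        orderOf_dvd_natCard _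
      have h7 : Nat.Coprime (2 ^ k) L.index := Nat.Coprime.pow_left _ (Nat.coprime_two_left.2 hLo)
      exact orderOf_eq_one_iff.1 (Nat.eq_one_of_dvd_coprimes h7 h5 h6)
    have h5 : gen U ≤ L.map (gen U).subtype := by
      refine iSup_le fun y g hg => ⟨⟨g, le_iSup U y hg⟩, h4 y g hg, rfl⟩
    rw [eq_top_iff]
    intro g _
    obtain ⟨g', hg', h6⟩ := h5 g.2
    have : g' = g := Subtype.ext h6
    rwa [← this]
  subst hLtop
  have hZΓ : ZP (gen U) := by
    have hZL : ZP (⊤ : Subgroup (gen U)) := hZ _ hL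
    exact hZL.of_equiv Subgroup.topEquiv
  have h3 := (hZΓ r hr (img U A) (isPGroup_img hA)).2 (kap U ⟨z, hzU⟩) (by
    rintro _ ⟨⟨b, hb⟩, hbA, rfl⟩
    rw [← map_mul, ← map_mul]
    congr 1
    exact Subtype.ext (hzA b hbA)) m hm (by
    rw [← map_pow]
    have : (⟨z, hzU⟩ : famStab U) ^ m = 1 := Subtype.ext hzm
    rw [this, map_one]) (by
    intro g hg
    have h3 := hzg g g.2 ((mem_fix_img hAU).1 hg)
    apply Subtype.ext
    rw [kap_apply]
    change z * g * z⁻¹ = g
    rw [h3, mul_inv_cancel_right])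
  refine h.eq_one hzU fun g hg => ?_
  have h4 := congrArg (fun k : MulAut (gen U) => ((k ⟨g, hg⟩ : gen U) : Equiv.Perm Om)) h3
  change z * g * z⁻¹ = g at h4
  exact mul_inv_eq_iff_eq_mul.1 h4

end Cfsg.Agent.H255.Panel
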