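import Cfsg.Agent.H255.NodeOdd
import Cfsg.Agent.H255.PanelTwo
import Cfsg.Agent.H255.PanelBld
import Cfsg.Agent.H255.RoSz
import Cfsg.Agent.H71.RoRee
import Cfsg.Agent.H748.RoPSL
import Cfsg.Agent.H748.RoPSU
import Cfsg.Agent.H967.DiagAut
import Cfsg.Agent.H967.SimpleIrr
import Cfsg.Agent.H996.AllSplit
import Cfsg.Agent.FixBN.LOAll
import Cfsg.Agent.FixOdd.TwOf
import Cfsg.Agent.S0320

/-!
# `ZP` for the groups of Lie type
-/

set_option autoImplicit false

namespace Cfsg.Agent.H255.LieZP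

open Cfsg Cfsg.Agent.LieExceptional.BNPairCore Cfsg.Agent.Tits.Core Cfsg.Agent.Tits.Core.Bldg Cfsg.Agent.Tits.OfBN
  Cfsg.Agent.Schreier.BNSch Cfsg.Agent.Tits.OppRes Cfsg.Agent.FixBN Cfsg.Agent.H255.Bld Cfsg.Agent.H255.Panel

/-- the type permutation preserves the Coxeter matrix -/
theorem σ_M {I : Type*} [Finite I] {M : CoxeterMatrix I} {W : Type*} [Group W] [Finite W] {cs : CoxeterSystem M W}
    {C : Type*} {Δ : Bldg cs C} {K : Type*} [Group K] [MulAction K C] (t : FixOdd.Tw Δ K) (i j : I) :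
    M (t.σ i) (t.σ j) = M i j := by
  classical
  have := Fintype.ofFinite I
  rw [← LieRecognition.CoxForm.orderOf_eq cs (t.σ i) (t.σ j), ← LieRecognition.CoxForm.orderOf_eq cs i j,
    ← t.φ_simple, ← t.φ_simple, ← map_mul]
  exact MulEquiv.orderOf_eq t.φ _

theorem zp_of_split {K : Type*} [Group K] [Finite K] [IsSimpleGroup K] {p : ℕ} [Fact p.Prime]
    {P : Cfsg.BNPair K} {U : Subgroup K} (hne : P.S.Nonempty) (h : Split P p U)
    (hpan : ∀ (_ : ((P.B ⊓ P.N).subgroupOf P.N).Normal) (M : CoxeterMatrix P.S)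
      (cs : CoxeterSystem M (WP P)) (hcs : ∀ i, cs.simple i =
        QuotientGroup.mk (⟨((Equiv.refl P.S i : P.S) : K), P.subset (Equiv.refl P.S i).2⟩ : P.N))
      (i : P.S) (x : K ⧸ P.B), PanelOK ((OfBN.sys (Equiv.refl P.S) cs hcs h).fam i x)) : ZP K := by
  classical
  have hN : ((P.B ⊓ P.N).subgroupOf P.N).Normal := Cfsg.Agent.Tits.OfBN.normal_subgroupOf P
  obtain ⟨M, cs, hcs⟩ := Cfsg.Agent.S0320.result P
  have hI : Finite P.S := FixBN.OfBN.finite_I (Equiv.refl P.S)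
  have hIn : Nonempty P.S := hne.to_subtype
  have hW : Finite (WP P) := inferInstance
  have hIf := Fintype.ofFinite P.S
  have hth := thick P (Equiv.refl P.S) cs hcs
  have hsa := strongAct P (Equiv.refl P.S) cs hcs h.core
  let Δ := bldg P (Equiv.refl P.S) cs hcs
  let T : AutAct Δ K := ⟨fun τ => (FixOdd.exists_tw h (Equiv.refl P.S) cs hcs τ).choose,
    fun τ => (FixOdd.exists_tw h (Equiv.refl P.S) cs hcs τ).choose_spec.1⟩
  intro r hrf hr A hA
  have hrW : ¬ r ∣ Nat.card (WP P) := by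
    intro h1
    apply hr
    refine h1.trans (dvd_trans ?_ (Subgroup.card_subgroup_dvd_card P.N))
    exact Subgroup.index_dvd_card ((P.B ⊓ P.N).subgroupOf P.N)
  have hAσ : ∀ a ∈ A, ∀ x y, Δ.δ (T.θ a x) (T.θ a y) = Δ.δ x y := by
    intro a ha x y
    obtain ⟨k, hk⟩ := hA ⟨a, ha⟩
    have hk' : a ^ r ^ k = 1 := congrArg Subtype.val hk
    have h1 : (T.tw a).σ ^ r ^ k = 1 := by
      rw [← T.σ_pow hth hsa, hk', T.σ_one hth hsa]
    have h2 : (T.tw a).σ = 1 := H967.DiagAut.diag cs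
      (LieRecognition.BNCox.connected P cs hcs (H967.SimpleIrr.irreducible h)) (T.tw a).σ (σ_M (T.tw a)) hrf.out hrW h1
    have h3 : ∀ w, (T.tw a).φ w = w := by
      intro w
      obtain ⟨ω, rfl⟩ := cs.wordProd_surjective w
      induction ω with
      | nil => rw [cs.wordProd_nil, map_one]
      | cons i ω ih => rw [cs.wordProd_cons, map_mul, ih, (T.tw a).φ_simple, h2, Equiv.Perm.one_apply]
    rw [T.δ_θ, h3]
  have hnode := fun i x hx => PanelBld.star_and_pan hsa (OfBN.sys (Equiv.refl P.S) cs hcs h) T hth hr hA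
    (i := i) (x := x) hAσ hx (hpan hN M cs hcs i x)
  exact Bld.main (T := T) hth hsa hr hA hAσ (fun x hx i => (hnode i x hx).1)
    (fun z hz hzf m hm hzm hzσ x hx hzfix i y hy => (hnode i x hx).2 z hz hzf m hm hzm hzσ hzfix y hy)

/-- the rank one groups in characteristic two -/
theorem zp_evenOne {L : Type*} [Group L] [IsSimpleGroup L] (h : EvenOne L) : ZP L := by
  rcases h with ⟨F, i1, i2, ⟨n, hn, hF⟩, ⟨e⟩⟩ | h | ⟨F, i1, i2, n, hn, hF, ⟨e⟩⟩
  · exact H748.RoPSL.l2 hn (by rw [Nat.card_eq_fintype_card, hF]) e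
  · exact RoSz.zp h
  · exact H748.RoPSU.u3 hn hF e

theorem zp_of_split_two {K : Type*} [Group K] [Finite K] [IsSimpleGroup K]
    {P : Cfsg.BNPair K} {U : Subgroup K} (hne : P.S.Nonempty) (h : Split P 2 U) : ZP K := by
  have h2p : Fact (Nat.Prime 2) := ⟨Nat.prime_two⟩
  refine zp_of_split hne h fun hN M cs hcs i x => ?_
  have hth := thick P (Equiv.refl P.S) cs hcs
  have hsa := strongAct P (Equiv.refl P.S) cs hcs h.core
  refine panelOK_two (fun L _ _ hL => zp_evenOne hL)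
    (PanelBld.rg hsa (OfBN.sys (Equiv.refl P.S) cs hcs h) hth (fun x y z hxy => OfBN.trans h hxy) i x) ?_
    (fun a b hab g hg hga hgb => PanelBld.odd_orderOf hsa (OfBN.sys (Equiv.refl P.S) cs hcs h) i x a b hab g hg hga hgb)
    ⟨x, Or.inl rfl⟩
  rintro y ⟨g, hg⟩
  obtain ⟨u, hu, h1⟩ := hg
  obtain ⟨k, hk⟩ := (OfBN.sys (Equiv.refl P.S) cs hcs h).isP y ⟨u, hu⟩
  have hk' : u ^ 2 ^ k = 1 := congrArg Subtype.val hk
  refine ⟨k, Subtype.ext ?_⟩
  change g ^ 2 ^ k = 1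
  have h2 : ∀ n : ℕ, ∀ z : (bldg P (Equiv.refl P.S) cs hcs).Pan i x, ((g ^ n) z : K ⧸ P.B) = u ^ n • (z : K ⧸ P.B) := by
    intro n
    induction n with
    | zero => intro z; rw [pow_zero, pow_zero, one_smul]; rfl
    | succ n ih => intro z; rw [pow_succ, Equiv.Perm.mul_apply, ih, h1, pow_succ, mul_smul]
  apply Equiv.ext
  intro z
  apply Subtype.ext
  rw [h2, hk', one_smul]
  rfl

/-- **`ZP` for the groups of Lie type.** -/
theorem zp_of_lie {p : ℕ} (hp : p.Prime) {K : Type*} [Group K] [Finite K] [IsSimpleGroup K]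
    (hK : IsLieTypeChar p K) : ZP K := by
  by_cases hp2 : p = 2
  · subst hp2
    obtain ⟨P, U, hne, h⟩ := H996.AllSplit.hasSplit_of_lie hp hK
    exact zp_of_split_two hne h
  · rcases exists_good_model hp2 hK with ⟨L, i1, i2, i3, i4, ⟨P, U, hne, h⟩, ⟨e⟩⟩ | h
    · have hL : ZP L := zp_of_split hne h.toSplit fun hN M cs hcs i x =>
        NodeOdd.panelOK h.toSplit (Equiv.refl P.S) cs hcs (h.good i i.2) x
      exact hL.of_equiv e.symm
    · exact H71.RoRee.ree h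

end Cfsg.Agent.H255.LieZP
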