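import Cfsg.Agent.H255.Galois

/-!
# Descent for groups of semilinear maps of a field
-/

set_option autoImplicit false

namespace Cfsg.Agent.H255.Semi

open Cfsg.Agent.H255.Galois

variable {F : Type*} [Field F] {G : Type*} [Group G]

/-- the scalars -/
def scal (F : Type*) [Field F] : Fˣ →* MulAut (Multiplicative F) where
  toFun t :=
    { toFun := fun x => Multiplicative.ofAdd ((t : F) * x.toAdd)
      invFun := fun x => Multiplicative.ofAdd ((t⁻¹ : Fˣ) * x.toAdd)
      left_inv := fun x => by
        apply Multiplicative.toAdd.injective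
        change ((t⁻¹ : Fˣ) : F) * (t * x.toAdd) = x.toAdd
        rw [← mul_assoc, Units.inv_mul, one_mul]
      right_inv := fun x => by
        apply Multiplicative.toAdd.injective
        change (t : F) * (((t⁻¹ : Fˣ) : F) * x.toAdd) = x.toAdd
        rw [← mul_assoc, Units.mul_inv, one_mul]
      map_mul' := fun x y => by
        apply Multiplicative.toAdd.injective
        change (t : F) * (x.toAdd + y.toAdd) = t * x.toAdd + t * y.toAdd
        rw [mul_add] }
  map_one' := by
    ext x
    apply Multiplicative.toAdd.injective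
    change (1 : F) * x.toAdd = x.toAdd
    rw [one_mul]
  map_mul' s t := by
    ext x
    apply Multiplicative.toAdd.injective
    change ((s * t : Fˣ) : F) * x.toAdd = s * (t * x.toAdd)
    rw [Units.val_mul, mul_assoc]

theorem scal_apply (t : Fˣ) (x : F) : scal F t (Multiplicative.ofAdd x) = Multiplicative.ofAdd (t * x) := rfl

/-- **Descent for semilinear maps.** -/
theorem semi [Finite F] (f : G → F → F) (h1 : ∀ x, f 1 x = x) (hmul : ∀ g h x, f (g * h) x = f g (f h x))
    (hs : ∀ g, ∃ e : F, e ≠ 0 ∧ ∃ τ : F →+* F, ∀ x, f g x = e * τ x) {r : ℕ} [hrf : Fact r.Prime]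
    (hr : ¬ r ∣ Nat.card F - 1) (A : Subgroup G) (hA : IsPGroup r A) :
    (∃ w : F, w ≠ 0 ∧ ∀ a ∈ A, f a w = w) ∧
      ∀ z : G, ∀ m : ℕ, ¬ r ∣ m → z ^ m = 1 → (∀ w, (∀ a ∈ A, f a w = w) → f z w = w) → ∀ x, f z x = x := by
  have hadd : ∀ g x y, f g (x + y) = f g x + f g y := by
    intro g x y
    obtain ⟨e, -, τ, h⟩ := hs g
    rw [h, h, h, map_add, mul_add]
  have hzero : ∀ g, f g 0 = 0 := by
    intro g
    obtain ⟨e, -, τ, h⟩ := hs g
    rw [h, map_zero, mul_zero]
  have hinv : ∀ g x, f g⁻¹ (f g x) = x := fun g x => by rw [← hmul, inv_mul_cancel, h1]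
  have hinv' : ∀ g x, f g (f g⁻¹ x) = x := fun g x => by rw [← hmul, mul_inv_cancel, h1]
  let ρ : G →* MulAut (Multiplicative F) :=
    { toFun := fun g =>
        { toFun := fun x => Multiplicative.ofAdd (f g x.toAdd)
          invFun := fun x => Multiplicative.ofAdd (f g⁻¹ x.toAdd)
          left_inv := fun x => Multiplicative.toAdd.injective (hinv g x.toAdd)
          right_inv := fun x => Multiplicative.toAdd.injective (hinv' g x.toAdd)
          map_mul' := fun x y => Multiplicative.toAdd.injective (hadd g x.toAdd y.toAdd) }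
      map_one' := by
        ext x
        exact Multiplicative.toAdd.injective (h1 x.toAdd)
      map_mul' := fun g h => by
        ext x
        exact Multiplicative.toAdd.injective (hmul g h x.toAdd) }
  have hρ : ∀ g x, ρ g (Multiplicative.ofAdd x) = Multiplicative.ofAdd (f g x) := fun g x => rfl
  -- a fixed point
  have hfix : ∃ w : F, w ≠ 0 ∧ ∀ a ∈ A, f a w = w := by
    let act : MulAction A {x : F // x ≠ 0} :=
      { smul := fun a x => ⟨f a.1 x.1, fun h => x.2 (by
          have := hinv a.1 x.1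
          rw [h, hzero] at this
          exact this.symm)⟩
        one_smul := fun x => Subtype.ext (h1 x.1)
        mul_smul := fun a b x => Subtype.ext (hmul a.1 b.1 x.1) }
    have hcard : Nat.card {x : F // x ≠ 0} = Nat.card F - 1 := by
      rw [← Nat.card_units]
      exact Nat.card_congr unitsEquivNeZero.symm
    obtain ⟨x, hx⟩ := hA.nonempty_fixed_point_of_prime_not_dvd_card (α := {x : F // x ≠ 0}) (by rwa [hcard])
    exact ⟨x.1, x.2, fun a ha => congrArg Subtype.val (hx ⟨a, ha⟩)⟩
  refine ⟨hfix, ?_⟩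
  intro z m hm hzm hz
  obtain ⟨w, hw, hwA⟩ := hfix
  have hnorm : ∀ g, ρ g ∈ Subgroup.normalizer ((scal F).range : Set (MulAut (Multiplicative F))) := by
    have key : ∀ g, ∀ t ∈ (scal F).range, ρ g * t * (ρ g)⁻¹ ∈ (scal F).range := by
      rintro g _ ⟨t, rfl⟩
      obtain ⟨e, he, τ, h⟩ := hs g
      refine ⟨Units.map (τ : F →* F) t, ?_⟩
      rw [eq_mul_inv_iff_mul_eq]
      ext x
      apply Multiplicative.toAdd.injective
      change τ (t : F) * f g x.toAdd = f g (t * x.toAdd)
      rw [h, h, map_mul]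
      ring
    intro g
    rw [Subgroup.mem_normalizer_iff]
    intro t
    refine ⟨key g t, fun h => ?_⟩
    have h2 := key g⁻¹ _ h
    rw [map_inv, inv_inv] at h2
    have h3 : (ρ g)⁻¹ * (ρ g * t * (ρ g)⁻¹) * ρ g = t := by group
    rwa [h3] at h2
  have h2 := descent (T := (scal F).range) (by
    rintro _ ⟨s, rfl⟩ _ ⟨t, rfl⟩
    rw [← map_mul, ← map_mul, mul_comm]) (by
    intro X hX
    by_cases h : X = ⊥
    · exact Or.inl h
    · right
      obtain ⟨⟨x, hx⟩, hx1'⟩ := Subgroup.ne_bot_iff_exists_ne_one.1 h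
      have hx1 : x ≠ 1 := fun h => hx1' (Subtype.ext h)
      rw [eq_top_iff]
      intro y _
      by_cases hy : y = 1
      · rw [hy]; exact one_mem _
      have hx0 : (x : Multiplicative F).toAdd ≠ 0 := fun h => hx1 (Multiplicative.toAdd.injective h)
      have hy0 : y.toAdd ≠ 0 := fun h => hy (Multiplicative.toAdd.injective h)
      have h3 := hX (scal F (Units.mk0 (y.toAdd / (x : Multiplicative F).toAdd) (div_ne_zero hy0 hx0))) ⟨_, rfl⟩ _ hx
      have h4 : scal F (Units.mk0 (y.toAdd / (x : Multiplicative F).toAdd) (div_ne_zero hy0 hx0)) x = y := by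
        apply Multiplicative.toAdd.injective
        change (y.toAdd / (x : Multiplicative F).toAdd) * (x : Multiplicative F).toAdd = y.toAdd
        exact div_mul_cancel₀ _ hx0
      rwa [h4] at h3) (A.map ρ) (hA.map _) (by
    rintro _ ⟨a, -, rfl⟩
    exact hnorm a) (ρ z) (hnorm z) hm (by rw [← map_pow, hzm, map_one])
    (w0 := Multiplicative.ofAdd w) (fun h => hw (Multiplicative.ofAdd.injective h)) (by
    rintro _ ⟨a, ha, rfl⟩
    rw [hρ, hwA a ha]) (by
    intro x hx
    have h3 := hz x.toAdd (fun a ha => Multiplicative.ofAdd.injective (hx (ρ a) ⟨a, ha, rfl⟩))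
    exact congrArg Multiplicative.ofAdd h3)
  intro x
  have h3 := congrArg (fun k : MulAut (Multiplicative F) => k (Multiplicative.ofAdd x)) h2
  exact Multiplicative.ofAdd.injective h3

end Cfsg.Agent.H255.Semi
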