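import Cfsg.Agent.H255.Panel
import Cfsg.Agent.H255.Semi
import Cfsg.Agent.FixBN.U3One

/-!
# The hermitian unital over a field of odd order
-/

set_option autoImplicit false

namespace Cfsg.Agent.H255.PanelU3

open Cfsg.Agent.FixBN Cfsg.Agent.H255.Panel Cfsg.Agent.FixBN.RankOneU3 Cfsg.Agent.FixBN.U3Model Cfsg.Agent.FixBN.U3Core
  Cfsg.Agent.FixBN.U3One

variable {F : Type*} [Field F] {σ : F →+* F} [H : Inv2 σ]

local notation "tl" => U3Model.tr
local notation "tp" => RankOneU3.toPt

theorem exists_pt_fst (a : F) (hF : UF σ) : ∃ x : Pt σ, x.a = a := exists_pt hF a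

theorem rg (hF : UF σ) : RG (u3Fam σ) where
  fix y g hg := by
    obtain ⟨a, rfl⟩ := hg
    have h1 : (tp y)⁻¹ y = (none : Om σ) := by
      have h2 := (tp y).symm_apply_apply (none : Om σ)
      rw [U3One.toPt_apply] at h2
      exact h2
    change tp y (tl a ((tp y)⁻¹ y)) = y
    rw [h1, U3Model.tr_none, U3One.toPt_apply]
  reg y a b ha hb := by
    have h1 : ∀ c : Om σ, c ≠ y → ∃ s : Pt σ, (tp y)⁻¹ c = some s := by
      intro c hc
      rcases h : (tp y)⁻¹ c with _ | s
      · exfalso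
        apply hc
        rw [← U3One.toPt_apply y, ← h]
        exact ((tp y).apply_symm_apply c).symm
      · exact ⟨s, rfl⟩
    obtain ⟨s, hs⟩ := h1 a ha
    obtain ⟨t, ht⟩ := h1 b hb
    refine ⟨tp y * tl (t * s⁻¹) * (tp y)⁻¹, ⟨_, rfl⟩, ?_⟩
    change tp y (tl (t * s⁻¹) ((tp y)⁻¹ a)) = b
    rw [hs, U3Model.tr_some, inv_mul_cancel_right, ← ht]
    exact (tp y).apply_symm_apply b
  free y g hg a ha hga := by
    by_contra hg1
    exact ha (by
      have := eq_of_fix hg hg1 hga
      exact this)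
  stab y := by
    rintro _ ⟨a, rfl⟩
    exact mul_mem (mul_mem (toPt_mem y) (tl_mem a)) (inv_mem (toPt_mem y))
  three a b := by
    obtain ⟨x, hx⟩ := exists_pt hF (1 : F)
    have hx1 : x ≠ 1 := by
      rintro rfl
      rw [one_a] at hx
      exact zero_ne_one hx
    by_contra hcon
    push Not at hcon
    have h1 := hcon none
    have h2 := hcon (some 1)
    have h3 := hcon (some x)
    rcases a with _ | a
    · have h4 := h2 (by simp)
      have h5 := h3 (by simp)
      rw [← h5] at h4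
      exact hx1 (Option.some_injective _ h4).symm
    · have h4 := h1 (by simp)
      subst h4
      by_cases ha : (some 1 : Om σ) = some a
      · have ha' : (some x : Om σ) ≠ some a := by
          rw [← ha]
          intro h
          exact hx1 (Option.some_injective _ h)
        exact Option.some_ne_none _ (h3 ha')
      · exact Option.some_ne_none _ (h2 ha)

theorem tl_mem_gen (a : Pt σ) : tl a ∈ gen (u3Fam σ) := le_iSup (u3Fam σ) none (mem_none.2 ⟨a, rfl⟩)

theorem jtj_mem_gen (a : Pt σ) : jj * tl a * jj ∈ gen (u3Fam σ) := by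
  refine le_iSup (u3Fam σ) (some 1) (mem_some.2 ⟨a, ?_⟩)
  rw [tl_one, one_mul, jj_inv]

theorem dp_mem (x y : Pt σ) (hx : x ≠ 1) (hy : y ≠ 1) :
    dp (lam x) (lam_ne_zero hx) * (dp (lam y) (lam_ne_zero hy))⁻¹ ∈ gen (u3Fam σ) := by
  have h1 : ∀ x : Pt σ, ∀ hx : x ≠ 1, dp (lam x) (lam_ne_zero hx) =
      (jj * (tl (J x))⁻¹ * jj) * tl x * jj * tl (J x⁻¹) := by
    intro x hx
    rw [mu_perm hx]
    group
  rw [h1 x hx, h1 y hy]
  have h2 : ∀ a b c d e f : Equiv.Perm (Om σ), a * b * jj * c * (d * e * jj * f)⁻¹ =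
      a * b * (jj * (c * f⁻¹) * jj⁻¹) * e⁻¹ * d⁻¹ := by
    intro a b c d e f
    group
  rw [h2, jj_inv, tl_inv, tl_inv, tl_inv, tl_mul]
  exact mul_mem (mul_mem (mul_mem (mul_mem (jtj_mem_gen _) (tl_mem_gen _)) (jtj_mem_gen _))
    (tl_mem_gen _)) (inv_mem (by rw [tl_inv]; exact jtj_mem_gen _))

theorem dp_none (c : F) (hc : c ≠ 0) : dp (σ := σ) c hc none = none := rfl

theorem dp_some (c : F) (hc : c ≠ 0) (x : Pt σ) : dp c hc (some x) = some (D c x) := rfl

theorem dp_one : dp (σ := σ) 1 one_ne_zero = 1 := by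
  apply Equiv.ext
  rintro (_ | x)
  · rfl
  · rw [dp_some, D_one']; rfl

theorem dp_mul (c d : F) (hc : c ≠ 0) (hd : d ≠ 0) :
    dp (σ := σ) c hc * dp d hd = dp (c * d) (mul_ne_zero hc hd) := by
  apply Equiv.ext
  rintro (_ | x)
  · rfl
  · rw [Equiv.Perm.mul_apply, dp_some, dp_some, dp_some, D_D]

theorem dp_pow (c : F) (hc : c ≠ 0) (n : ℕ) : (dp (σ := σ) c hc) ^ n = dp (c ^ n) (pow_ne_zero n hc) := by
  induction n with
  | zero =>
    rw [pow_zero]
    have : ∀ e : F, ∀ he : e ≠ 0, e = 1 → dp (σ := σ) e he = 1 := by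
      rintro e he rfl
      exact dp_one
    exact (this _ _ (pow_zero c)).symm
  | succ n ih =>
    rw [pow_succ, ih, dp_mul]
    have : ∀ e f : F, ∀ he : e ≠ 0, ∀ hf : f ≠ 0, e = f → dp (σ := σ) e he = dp f hf := by
      rintro e f he hf rfl
      rfl
    exact this _ _ _ _ (pow_succ c n).symm

/-- the torus elements in the group -/
theorem dp_mem_gen (hF : UF σ) {u : F} (hu : u ≠ 0) :
    dp (σ := σ) (σ u * σ u / u) (div_ne_zero (mul_ne_zero ((map_ne_zero σ).2 hu) ((map_ne_zero σ).2 hu)) hu) ∈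
      gen (u3Fam σ) := by
  obtain ⟨x, hx⟩ := exists_pt_b hF u
  obtain ⟨y, hy⟩ := exists_pt_b hF (1 : F)
  have hx1 : x ≠ 1 := by
    rintro rfl
    rw [one_b] at hx
    exact hu hx.symm
  have hy1 : y ≠ 1 := by
    rintro rfl
    rw [one_b] at hy
    exact zero_ne_one hy
  have h1 := dp_mem x y hx1 hy1
  have h2 : dp (σ := σ) (lam y) (lam_ne_zero hy1) = 1 := by
    have : ∀ e : F, ∀ he : e ≠ 0, e = 1 → dp (σ := σ) e he = 1 := by
      rintro e he rfl
      exact dp_one
    refine this _ _ ?_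
    unfold lam
    rw [hy, map_one, mul_one, div_one]
  rw [h2, inv_one, mul_one] at h1
  have h3 : ∀ e f : F, ∀ he : e ≠ 0, ∀ hf : f ≠ 0, e = f → dp (σ := σ) e he = dp f hf := by
    rintro e f he hf rfl
    rfl
  rw [h3 _ (lam x) _ (lam_ne_zero hx1) (by unfold lam; rw [hx])]
  exact h1

theorem finite_pt [Finite F] : Finite (Pt σ) :=
  Finite.of_injective (fun x : Pt σ => (x.a, x.b)) fun x y h => ext' (congrArg Prod.fst h) (congrArg Prod.snd h)

/-- the projection on the first coordinate -/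
def pr (σ : F →+* F) [Inv2 σ] : Pt σ →* Multiplicative F where
  toFun x := Multiplicative.ofAdd x.a
  map_one' := rfl
  map_mul' x y := rfl

theorem mem_ker {x : Pt σ} : x ∈ (pr σ).ker ↔ x.a = 0 := by
  rw [MonoidHom.mem_ker]
  exact Iff.rfl

theorem card_ker [Finite F] (hF : UF σ) : Nat.card (pr σ).ker =
    Nat.card {f : Fˣ // σ (f : F) = f} + 1 := by
  have hfin : Finite (Pt σ) := finite_pt
  obtain ⟨s, hs, hss⟩ := exists_skew hF
  have e : (pr σ).ker ≃ Option {f : Fˣ // σ (f : F) = f} := by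
    classical
    have hb : ∀ x : Pt σ, x.a = 0 → σ x.b = - x.b := by
      intro x hx
      have := x.h
      rw [hx, zero_mul, add_zero] at this
      linear_combination this
    refine
      { toFun := fun x => if h : x.1.b = 0 then none else some ⟨Units.mk0 (x.1.b / s) (div_ne_zero h hs), by
            rw [Units.val_mk0, map_div₀, hss, hb x.1 (mem_ker.1 x.2), neg_div_neg_eq]⟩
        invFun := fun f => f.elim 1 fun f => ⟨⟨0, s * (f.1 : F), by
            rw [map_mul, hss, f.2, map_zero]; ring⟩, by rw [mem_ker]⟩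
        left_inv := ?_
        right_inv := ?_ }
    · rintro ⟨x, hx⟩
      rw [mem_ker] at hx
      by_cases h : x.b = 0
      · simp only [h]
        apply Subtype.ext
        apply ext'
        · exact hx.symm
        · exact h.symm
      · simp only [h]
        apply Subtype.ext
        apply ext'
        · exact hx.symm
        · change s * (x.b / s) = x.b
          field_simp
    · rintro (_ | f)
      · have : ((1 : (pr σ).ker) : Pt σ).b = 0 := rfl
        simp only [Option.elim, this]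
        rfl
      · have h1 : s * (f.1 : F) ≠ 0 := mul_ne_zero hs f.1.ne_zero
        simp only [Option.elim]
        refine (dif_neg h1).trans (congrArg some ?_)
        apply Subtype.ext
        apply Units.ext
        change s * (f.1 : F) / s = f.1
        field_simp
  rw [Nat.card_congr e, Finite.card_option]

theorem card_pt [Finite F] (hF : UF σ) : Nat.card (Pt σ) = Nat.card F * Nat.card (pr σ).ker := by
  have hfin : Finite (Pt σ) := finite_pt
  have h1 := (pr σ).ker.card_mul_index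
  have h2 : (pr σ).ker.index = Nat.card F := by
    rw [Subgroup.index_ker, MonoidHom.range_eq_top.2]
    · rw [Subgroup.card_top]
      rfl
    · intro a
      obtain ⟨x, hx⟩ := exists_pt hF a.toAdd
      exact ⟨x, congrArg Multiplicative.ofAdd hx⟩
  rw [h2] at h1
  rw [← h1, mul_comm]

/-- the order of the torus -/
theorem not_dvd [Finite F] (hF : UF σ) {r : ℕ} [hrf : Fact r.Prime] (hr : ¬ r ∣ Nat.card ↥(gen (u3Fam σ))) :
    ¬ r ∣ Nat.card F - 1 := by
  have hfin : Finite (Pt σ) := finite_pt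
  intro hd
  rw [← Nat.card_units] at hd
  obtain ⟨u, hu⟩ := exists_prime_orderOf_dvd_card' r hd
  have hu1 : (u : F) ^ r = 1 := by
    rw [← Units.val_pow_eq_pow_val, ← hu, pow_orderOf_eq_one, Units.val_one]
  have hune : (u : F) ≠ 1 := by
    intro h
    have h1 : u = 1 := Units.ext h
    rw [h1, orderOf_one] at hu
    exact hrf.out.one_lt.ne hu
  have hu0 : (u : F) ≠ 0 := u.ne_zero
  -- an element of order `r` of the torus
  have key : ∀ v : F, v ≠ 0 → v ^ r = 1 → σ v * σ v / v ≠ 1 → False := by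
    intro v hv hvr hc
    apply hr
    set c : F := σ v * σ v / v with hcdef
    have hc0 : c ≠ 0 := div_ne_zero (mul_ne_zero ((map_ne_zero σ).2 hv) ((map_ne_zero σ).2 hv)) hv
    have hcr : c ^ r = 1 := by
      rw [hcdef, div_pow, mul_pow, ← map_pow, hvr, map_one, one_mul, div_one]
    have h3 : orderOf (dp (σ := σ) c hc0) = r := by
      refine orderOf_eq_prime ?_ ?_
      · rw [dp_pow]
        have : ∀ e : F, ∀ he : e ≠ 0, e = 1 → dp (σ := σ) e he = 1 := by
          rintro e he rfl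
          exact dp_one
        exact this _ _ hcr
      · intro h
        obtain ⟨x, hx⟩ := exists_pt hF (1 : F)
        have h4 := congrArg (fun g : Equiv.Perm (Om σ) => g (some x)) h
        have h5 : dp (σ := σ) c hc0 (some x) = some x := h4
        rw [dp_some] at h5
        have h6 := congrArg Pt.a (Option.some_injective _ h5)
        rw [D_a, hx, mul_one] at h6
        exact hc h6
    rw [← h3]
    exact Subgroup.orderOf_dvd_natCard _ (dp_mem_gen hF hv)
  have hprim : IsPrimitiveRoot (u : F) r := by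
    rw [← hu]
    exact (IsPrimitiveRoot.coe_units_iff.2 (IsPrimitiveRoot.orderOf u))
  have hr1 : r ≠ 0 := hrf.out.ne_zero
  have : NeZero r := ⟨hr1⟩
  by_cases hσ : σ (u : F) = u
  · apply key u hu0 hu1
    rw [hσ, mul_div_assoc, div_self hu0, mul_one]
    exact hune
  -- `σ u = u⁻¹`
  have hinv : σ (u : F) * u = 1 := by
    by_contra hv
    have hvr : (σ (u : F) * u) ^ r = 1 := by rw [mul_pow, ← map_pow, hu1, map_one, one_mul]
    have hv0 : σ (u : F) * u ≠ 0 := mul_ne_zero ((map_ne_zero σ).2 hu0) hu0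
    have hvp : IsPrimitiveRoot (σ (u : F) * u) r := IsPrimitiveRoot.iff_orderOf.2 (orderOf_eq_prime hvr hv)
    obtain ⟨i, -, hi⟩ := hvp.eq_pow_of_pow_eq_one hu1
    apply hσ
    rw [← hi, map_pow, map_mul, H.invol, mul_comm (u : F)]
  by_cases hr3 : r = 3
  · subst hr3
    let Ks : Subgroup Fˣ :=
      { carrier := {f | σ (f : F) = f}
        one_mem' := by change σ ((1 : Fˣ) : F) = ((1 : Fˣ) : F); rw [Units.val_one, map_one]
        mul_mem' := fun {a b} (ha : σ (a : F) = a) (hb : σ (b : F) = b) => by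
          change σ ((a * b : Fˣ) : F) = ((a * b : Fˣ) : F)
          rw [Units.val_mul, map_mul, ha, hb]
        inv_mem' := fun {a} (ha : σ (a : F) = a) => by
          change σ ((a⁻¹ : Fˣ) : F) = ((a⁻¹ : Fˣ) : F)
          rw [Units.val_inv_eq_inv_val, map_inv₀, ha] }
    have h1 : Nat.card (pr σ).ker = Nat.card Ks + 1 := card_ker hF
    have h2 := card_pt hF
    have h3 : Nat.card (Om σ) = Nat.card (Pt σ) + 1 := Finite.card_option
    have h4 : ¬ 3 ∣ Nat.card (Om σ) := fun h => hr (h.trans ((rg hF).card_dvd none))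
    have h5 : ¬ 3 ∣ Nat.card (Pt σ) := by
      intro h
      apply hr
      have h6 := (rg hF).card_ne (none : Om σ)
      have h7 : Nat.card {x : Om σ // x ≠ none} = Nat.card (Pt σ) := by
        refine Nat.card_congr ⟨fun x => x.1.get (Option.isSome_iff_ne_none.2 x.2), fun x => ⟨some x, by simp⟩,
          fun x => Subtype.ext (by simp), fun x => by simp⟩
      rw [← h7, h6] at h
      exact h.trans (Subgroup.card_dvd_of_le (le_iSup (u3Fam σ) none))
    rw [Nat.card_units] at hd
    have hF1 : 1 ≤ Nat.card F := Nat.card_pos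
    obtain ⟨q, hq⟩ := hd
    have h6 : Nat.card F = 3 * q + 1 := by omega
    have h7 : Nat.card (Pt σ) = 3 * (q * (Nat.card Ks + 1)) + (Nat.card Ks + 1) := by
      rw [h2, h1, h6]; ring
    have h8 : 3 ∣ Nat.card Ks := by omega
    have h3p : Fact (Nat.Prime 3) := ⟨Nat.prime_three⟩
    obtain ⟨f, hf⟩ := exists_prime_orderOf_dvd_card' 3 h8
    have hfp : IsPrimitiveRoot ((f : Fˣ) : F) 3 := by
      have : orderOf (f : Fˣ) = 3 := by rw [Subgroup.orderOf_coe, hf]
      rw [← this]
      exact (IsPrimitiveRoot.coe_units_iff.2 (IsPrimitiveRoot.orderOf (f : Fˣ)))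
    obtain ⟨i, -, hi⟩ := hfp.eq_pow_of_pow_eq_one hu1
    apply hσ
    rw [← hi, map_pow]
    exact congrArg (· ^ i) f.2
  · apply key u hu0 hu1
    have h1 : σ (u : F) = (u : F)⁻¹ := eq_inv_of_mul_eq_one_left hinv
    rw [h1]
    intro h
    have h2 : (u : F) ^ 3 = 1 := by
      have h3 : ((u : F)⁻¹ * (u : F)⁻¹ / u) * (u : F) ^ 3 = 1 := by field_simp
      rw [h, one_mul] at h3
      exact h3
    have h3 := hprim.dvd_of_pow_eq_one 3 h2
    exact hr3 ((Nat.prime_dvd_prime_iff_eq hrf.out Nat.prime_three).1 h3)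

/-- the stabiliser of the two points -/
def stab2 (σ : F →+* F) [Inv2 σ] : Subgroup (Equiv.Perm (Om σ)) where
  carrier := {c | c ∈ famStab (u3Fam σ) ∧ c none = none ∧ c (some 1) = some 1}
  one_mem' := ⟨one_mem _, rfl, rfl⟩
  mul_mem' := fun {a b} ha hb => ⟨mul_mem ha.1 hb.1, by
    rw [Equiv.Perm.mul_apply, hb.2.1, ha.2.1], by
    rw [Equiv.Perm.mul_apply, hb.2.2, ha.2.2]⟩
  inv_mem' := fun {a} ha => ⟨inv_mem ha.1, by
    rw [Equiv.Perm.inv_eq_iff_eq, ha.2.1], by
    rw [Equiv.Perm.inv_eq_iff_eq, ha.2.2]⟩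

theorem exists_fn (hF : UF σ) (c : stab2 σ) : ∃ f : F → F, (∃ e : F, e ≠ 0 ∧ ∃ τ : F →+* F, ∀ x, f x = e * τ x) ∧
    ∀ x : Pt σ, ∃ y, c.1 (some x) = some y ∧ y.a = f x.a := by
  obtain ⟨φ, e, τ, h⟩ := exists_sl hF c.2.1 c.2.2.1 c.2.2.2
  exact ⟨fun x => e * τ x, ⟨e, h.ne, τ, fun _ => rfl⟩, fun x => ⟨φ x, h.val x, h.a x⟩⟩

/-- **The unital.** -/
theorem panelOK [Finite F] (hF : UF σ) : PanelOK (u3Fam σ) := by
  classical
  have hfin : Finite (Pt σ) := finite_pt
  refine (rg hF).panelOK (p := none) (q := some 1) (by simp) ?_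
  intro r hrf hr A hA hAU hfix
  have hrF := not_dvd hF hr
  choose fn hfn hfs using exists_fn (σ := σ) hF
  have hfs' : ∀ (c : stab2 σ) (x y : Pt σ), c.1 (some x) = some y → y.a = fn c x.a := by
    intro c x y h
    obtain ⟨y', h1, h2⟩ := hfs c x
    rw [h1] at h
    rw [← Option.some_injective _ h]
    exact h2
  have hAS : A ≤ stab2 σ := fun a ha => ⟨hAU ha, (hfix a ha).1, (hfix a ha).2⟩
  have h1 : ∀ x, fn 1 x = x := by
    intro x
    obtain ⟨y, rfl⟩ := exists_pt hF x
    exact (hfs' 1 y y rfl).symm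
  have hmul : ∀ g h x, fn (g * h) x = fn g (fn h x) := by
    intro g h x
    obtain ⟨y, rfl⟩ := exists_pt hF x
    obtain ⟨y', h2, h3⟩ := hfs h y
    obtain ⟨y'', h4, h5⟩ := hfs g y'
    rw [← h3, ← h5]
    exact (hfs' (g * h) y y'' (by
      change g.1 (h.1 (some y)) = some y''
      rw [h2, h4])).symm
  obtain ⟨⟨w, hw, hwA⟩, hz⟩ := Semi.semi (G := stab2 σ) fn h1 hmul hfn hrF (A.subgroupOf (stab2 σ))
      (hA.comap_of_injective _ (stab2 σ).subtype_injective)
  -- lifting of the fixed points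
  have hlift : ∀ w, (∀ a ∈ A.subgroupOf (stab2 σ), fn a w = w) → ∃ x : Pt σ, x.a = w ∧ ∀ a ∈ A, a (some x) = some x := by
    intro w hw
    obtain ⟨x₀, hx₀⟩ := exists_pt hF w
    obtain ⟨y, hy, hyA⟩ := exists_fixed hA {y : Om σ | ∃ x : Pt σ, y = some x ∧ x.a = w} (by
      rintro a ha _ ⟨x, rfl, hx⟩
      obtain ⟨y, h2, h3⟩ := hfs ⟨a, hAS ha⟩ x
      refine ⟨y, h2, ?_⟩
      rw [h3, hx]
      exact hw ⟨a, hAS ha⟩ ha) (by
      have e : (pr σ).ker ≃ {y : Om σ | ∃ x : Pt σ, y = some x ∧ x.a = w} :=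
        Equiv.ofBijective (fun k => ⟨some (x₀ * k.1), x₀ * k.1, rfl, by rw [mul_a, hx₀, mem_ker.1 k.2, add_zero]⟩)
          ⟨fun k l h => by
            have h2 := Option.some_injective _ (congrArg Subtype.val h)
            exact Subtype.ext (mul_left_cancel h2), by
            rintro ⟨_, x, rfl, hx⟩
            refine ⟨⟨x₀⁻¹ * x, ?_⟩, ?_⟩
            · rw [mem_ker, mul_a, inv_a, hx₀, hx]; ring
            · apply Subtype.ext
              change some (x₀ * (x₀⁻¹ * x)) = some x
              rw [mul_inv_cancel_left]⟩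
      rw [← Nat.card_congr e]
      intro h
      apply hr
      have h6 := (rg hF).card_ne (none : Om σ)
      have h7 : Nat.card {x : Om σ // x ≠ none} = Nat.card (Pt σ) := by
        refine Nat.card_congr ⟨fun x => x.1.get (Option.isSome_iff_ne_none.2 x.2), fun x => ⟨some x, by simp⟩,
          fun x => Subtype.ext (by simp), fun x => by simp⟩
      have h8 : r ∣ Nat.card (Pt σ) := h.trans (Subgroup.card_subgroup_dvd_card _)
      rw [← h7, h6] at h8
      exact h8.trans (Subgroup.card_dvd_of_le (le_iSup (u3Fam σ) none)))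
    obtain ⟨x, rfl, hx⟩ := hy
    exact ⟨x, hx, hyA⟩
  obtain ⟨x, hx, hxA⟩ := hlift w hwA
  refine ⟨⟨none, some 1, some x, by simp, by simp, ?_, ?_⟩, ?_⟩
  · intro h
    have h2 := Option.some_injective _ h
    rw [← h2, one_a] at hx
    exact hw hx.symm
  · intro g hg
    exact ⟨(hfix g hg).1, (hfix g hg).2, hxA g hg⟩
  · intro z hzU hzA m hm hzm hzf _
    have hz0 : z none = none := hzf _ fun a ha => (hfix a ha).1
    have hz1 : z (some 1) = some 1 := hzf _ fun a ha => (hfix a ha).2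
    have h3 := hz ⟨z, hzU, hz0, hz1⟩ m hm (Subtype.ext hzm) (by
      intro w hw
      obtain ⟨x, rfl, hxA⟩ := hlift w hw
      exact (hfs' ⟨z, hzU, hz0, hz1⟩ x x (hzf _ hxA)).symm)
    obtain ⟨φ, e, τ, h⟩ := exists_sl hF hzU hz0 hz1
    have h4 : ∀ a, e * τ a = a := by
      intro a
      obtain ⟨x, rfl⟩ := exists_pt hF a
      have h5 := hfs' ⟨z, hzU, hz0, hz1⟩ x (φ x) (h.val x)
      rw [h3, h.a] at h5
      exact h5
    have he : e = 1 := by
      have := h4 1
      rwa [map_one, mul_one] at this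
    subst he
    apply Equiv.ext
    rintro (_ | x)
    · exact hz0
    · rw [h.val]
      congr 1
      apply ext'
      · rw [h.a, h4]
      · have h5 := h4 x.b
        rw [one_mul] at h5
        rw [h.b, map_one, mul_one, one_mul, h5]

end Cfsg.Agent.H255.PanelU3
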