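import Cfsg.Agent.H255.ZP
import Cfsg.Agent.H566.Reduce

/-!
# `ZP` and arbitrary finite groups

`red` : let all the non-abelian simple sections of the finite group `G` have the property `ZP`, let `A` be an `r`-group of
automorphisms of `G`, `r` prime to `|G|`, and `z` an `r'`-automorphism of `G` commuting with `A` and trivial on the fixed
points of `A`.  Then `[G, z]` lies in a solvable characteristic subgroup.
-/

set_option autoImplicit false

namespace Cfsg.Agent.H255.Red

open Cop Cfsg.Agent.H566 Subgroup

universe u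

/-- all non-abelian simple sections have the property `ZP` -/
def SecZP (G : Type u) [Group G] : Prop :=
  ∀ (S : Type u) [Group S] [IsSimpleGroup S], (¬ ∀ a b : S, a * b = b * a) →
    ∀ (M : Subgroup G) (f : M →* S), Function.Surjective f → ZP S

section Sec

variable {G : Type u} [Group G]

theorem SecZP.sub (h : SecZP G) (H : Subgroup G) : SecZP H := by
  intro S _ _ hna M f hf
  let e : M ≃* M.map H.subtype := M.equivMapOfInjective _ H.subtype_injective
  exact h S hna (M.map H.subtype) (f.comp e.symm.toMonoidHom) (hf.comp e.symm.surjective)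

theorem SecZP.quo (h : SecZP G) (N : Subgroup G) [N.Normal] : SecZP (G ⧸ N) := by
  intro S _ _ hna M f hf
  exact h S hna (M.comap (QuotientGroup.mk' N)) (f.comp ((QuotientGroup.mk' N).subgroupComap M))
    (hf.comp ((QuotientGroup.mk' N).subgroupComap_surjective_of_surjective M (QuotientGroup.mk'_surjective N)))

theorem SecZP.self (h : SecZP G) [IsSimpleGroup G] (hna : ¬ ∀ a b : G, a * b = b * a) : ZP G :=
  h G hna ⊤ (Subgroup.topEquiv : (⊤ : Subgroup G) ≃* G).toMonoidHom (Subgroup.topEquiv : (⊤ : Subgroup G) ≃* G).surjective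

end Sec

section Stab

variable {G : Type u} [Group G]

/-- the automorphisms stabilizing a subgroup -/
def stab (T : Subgroup G) : Subgroup (MulAut G) where
  carrier := {a | ∀ x, a x ∈ T ↔ x ∈ T}
  one_mem' := fun _ => Iff.rfl
  mul_mem' := fun {a b} ha hb x => (ha (b x)).trans (hb x)
  inv_mem' := fun {a} ha x => by
    have h1 := ha (a⁻¹ x)
    rw [MulAut.apply_inv_self] at h1
    exact h1.symm

theorem mem_stab {T : Subgroup G} {a : MulAut G} : a ∈ stab T ↔ ∀ x, a x ∈ T ↔ x ∈ T := Iff.rfl

theorem mem_stab_of_map {T : Subgroup G} {a : MulAut G} (h : T.map a.toMonoidHom = T) : a ∈ stab T := by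
  intro x
  constructor
  · intro hx
    rw [← h] at hx
    obtain ⟨y, hy, hyx⟩ := hx
    have h1 : y = x := a.injective hyx
    rwa [← h1]
  · intro hx
    rw [← h]
    exact ⟨x, hx, rfl⟩

theorem map_of_mem_stab {T : Subgroup G} {a : MulAut G} (h : a ∈ stab T) : T.map a.toMonoidHom = T := by
  ext x
  constructor
  · rintro ⟨y, hy, rfl⟩
    exact (h y).2 hy
  · intro hx
    refine ⟨a⁻¹ x, (inv_mem h x).2 hx, ?_⟩
    exact MulAut.apply_inv_self G a x

/-- restriction to a stable subgroup -/
def res (T : Subgroup G) : stab T →* MulAut T where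
  toFun a :=
    { toFun := fun x => ⟨a.1 x.1, (a.2 x.1).2 x.2⟩
      invFun := fun x => ⟨a.1⁻¹ x.1, (inv_mem a.2 x.1).2 x.2⟩
      left_inv := fun x => Subtype.ext (MulAut.inv_apply_self _ _ _)
      right_inv := fun x => Subtype.ext (MulAut.apply_inv_self _ _ _)
      map_mul' := fun x y => Subtype.ext (map_mul a.1 x.1 y.1) }
  map_one' := by ext x; rfl
  map_mul' a b := by ext x; rfl

theorem coe_res (T : Subgroup G) (a : stab T) (x : T) : ((res T a x : T) : G) = a.1 x.1 := rfl

end Stab

section Core

variable {G : Type u} [Group G] [Finite G] {A : Subgroup (MulAut G)} {T : Subgroup G}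

theorem dg_mem_centralizer [Fintype (↥A ⧸ stT A T)] (hT : T ∈ NSim G) (s : Fx (indT A T)) {T' : Subgroup G}
    (hT' : T' ∈ NSim G) (hne : ∀ a ∈ A, T.map a.toMonoidHom ≠ T') : dg hT s ∈ centralizer (T' : Set G) := by
  rw [dg_apply]
  refine Subgroup.noncommProd_mem _ _ ?_
  intro i _
  rw [mem_centralizer_iff]
  intro t ht
  exact (NSim.comm (NSim.map hT _) hT' (hne _ (i.out : ↥A).2) (ph_mem i s) ht).symm

theorem dg_split [Fintype (↥A ⧸ stT A T)] (hT : T ∈ NSim G) (s : Fx (indT A T)) :
    ∃ c ∈ centralizer (T : Set G), dg hT s = s.1.1 * c := by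
  classical
  rw [dg_apply]
  let i₀ : ↥A ⧸ stT A T := QuotientGroup.mk 1
  have h1 := Finset.mul_noncommProd_erase Finset.univ (Finset.mem_univ i₀) (fun i => ph A T i s)
    (fun _ _ _ _ hij => ph_comm hT hij s s)
  have h2 : ph A T i₀ s = s.1.1 := ph_mk 1 s
  rw [h2] at h1
  refine ⟨_, ?_, h1.symm⟩
  refine Subgroup.noncommProd_mem _ _ ?_
  intro i hi
  rw [mem_centralizer_iff]
  intro t ht
  refine (NSim.comm (NSim.map hT _) hT ?_ (ph_mem i s) ht).symm
  intro h
  apply Finset.ne_of_mem_erase hi
  apply map_out_injective T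
  change T.map ((i.out : ↥A) : MulAut G).toMonoidHom = T.map ((i₀.out : ↥A) : MulAut G).toMonoidHom
  rw [h]
  obtain ⟨b, hb⟩ := QuotientGroup.mk_out_eq_mul (stT A T) 1
  have h3 : i₀.out = (b : ↥A) := by rw [show i₀ = QuotientGroup.mk 1 from rfl, hb, one_mul]
  rw [h3]
  exact (b.2 : T.map (b : ↥A).1.toMonoidHom = T).symm

theorem eq_one_of_central (hT : T ∈ NSim G) {x : G} (hx : x ∈ T) (hc : x ∈ centralizer (T : Set G)) : x = 1 := by
  have hTn := hT.1
  have h2 : (T ⊓ centralizer (T : Set G)).Normal := inferInstance
  rcases NSim.eq_or hT h2 inf_le_left with h3 | h3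
  · have h4 : x ∈ T ⊓ centralizer (T : Set G) := ⟨hx, hc⟩
    rw [h3, mem_bot] at h4
    exact h4
  · exfalso
    apply hT.2.2
    intro a ha b hb
    have := inf_eq_left.1 h3 hb
    exact (mem_centralizer_iff.1 this a ha)

variable {r : ℕ} [hr : Fact r.Prime]

theorem core (hT : T ∈ NSim G) (hZ : ZP T) (hrG : ¬ r ∣ Nat.card G) (hA : IsPGroup r A) (z : MulAut G)
    (hza : ∀ a ∈ A, z * a = a * z) (m : ℕ) (hm : ¬ r ∣ m) (hzm : z ^ m = 1) (hz : ∀ x ∈ fix A, z x = x) :
    ∀ x ∈ T, z x = x := by
  classical
  have hfin : Finite (MulAut G) := inferInstance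
  let _ : Fintype (↥A ⧸ stT A T) := Fintype.ofFinite _
  have hrT : ¬ r ∣ Nat.card T := fun h => hrG (h.trans (Subgroup.card_subgroup_dvd_card T))
  have hAT : IsPGroup r (indT A T) := by
    obtain ⟨k, hk⟩ := (IsPGroup.iff_card (p := r)).1 hA
    have h1 : Nat.card (indT A T) ∣ r ^ k := hk ▸ card_indT T
    obtain ⟨j, -, hj⟩ := (Nat.dvd_prime_pow hr.out).1 h1
    exact IsPGroup.of_card hj
  obtain ⟨⟨s, hs, hs1⟩, hZ2⟩ := hZ r hrT (indT A T) hAT
  have hzd : ∀ s : Fx (indT A T), z (dg hT s) = dg hT s := fun s => hz _ (dg_mem hT s)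
  -- `z` stabilizes `T`
  have hzT : z ∈ stab T := by
    have h1 : ∃ a ∈ A, T.map a.toMonoidHom = T.map z.toMonoidHom := by
      by_contra hno
      push Not at hno
      have hd := dg_mem_centralizer (A := A) hT ⟨s, hs⟩ (NSim.map hT z) hno
      obtain ⟨c, hc, hdc⟩ := dg_split (A := A) hT ⟨s, hs⟩
      have h2 := hzd ⟨s, hs⟩
      rw [hdc, map_mul] at h2
      rw [hdc] at hd
      have h3 : z c ∈ centralizer ((T.map z.toMonoidHom : Subgroup G) : Set G) := by
        rw [mem_centralizer_iff]
        rintro _ ⟨t, ht, rfl⟩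
        change z t * z c = z c * z t
        rw [← map_mul, ← map_mul, mem_centralizer_iff.1 hc t ht]
      have h4 : z s.1 ∈ centralizer ((T.map z.toMonoidHom : Subgroup G) : Set G) := by
        have h5 : z s.1 = (s.1 * c) * (z c)⁻¹ := by rw [← h2]; group
        rw [h5]
        exact mul_mem hd (inv_mem h3)
      have h5 := eq_one_of_central (NSim.map hT z) (mem_map_of_mem z.toMonoidHom s.2) h4
      apply hs1
      apply Subtype.ext
      apply z.injective
      rw [OneMemClass.coe_one, map_one]
      exact h5
    obtain ⟨a, ha, haz⟩ := h1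
    have hb : a⁻¹ * z ∈ stab T := by
      apply mem_stab_of_map
      have h2 : T.map (a⁻¹ * z).toMonoidHom = (T.map z.toMonoidHom).map (a⁻¹).toMonoidHom := by
        rw [Subgroup.map_map]; rfl
      rw [h2, ← haz, Subgroup.map_map]
      have h3 : (a⁻¹).toMonoidHom.comp a.toMonoidHom = MonoidHom.id G := by
        ext x
        exact MulAut.inv_apply_self G a x
      rw [h3, Subgroup.map_id]
    have hcom : Commute z a := hza a ha
    have h2 : (a⁻¹ * z) ^ m = (a ^ m)⁻¹ := by
      rw [(hcom.inv_right).symm.mul_pow, hzm, mul_one, inv_pow]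
    have h3 : a ^ m ∈ stab T := by
      have := pow_mem hb m
      rw [h2] at this
      exact inv_mem_iff.1 this
    have h4 : m.Coprime (orderOf a) := by
      obtain ⟨k, hk⟩ := (IsPGroup.iff_orderOf.1 hA) ⟨a, ha⟩
      rw [← Subgroup.orderOf_coe] at hk
      change orderOf a = r ^ k at hk
      rw [hk]
      exact Nat.Coprime.pow_right k ((Nat.Prime.coprime_iff_not_dvd hr.out).2 hm).symm
    obtain ⟨j, hj⟩ := exists_pow_eq_self_of_coprime h4
    have h5 : a ∈ stab T := by
      rw [← hj]
      exact pow_mem h3 j
    have h6 : z = a * (a⁻¹ * z) := by group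
    rw [h6]
    exact mul_mem h5 hb
  -- `z` on `T`
  have h1 := hZ2 (res T ⟨z, hzT⟩) (by
    rintro _ ⟨⟨_, a, ha, rfl⟩, rfl⟩
    ext x
    exact DFunLike.congr_fun (hza a.1 a.2) x.1) m hm (by
    rw [← map_pow]
    have : (⟨z, hzT⟩ : stab T) ^ m = 1 := Subtype.ext hzm
    rw [this, map_one]) (by
    intro x hx
    obtain ⟨c, hc, hdc⟩ := dg_split (A := A) hT ⟨x, hx⟩
    have h2 := hzd ⟨x, hx⟩
    rw [hdc, map_mul] at h2
    have h3 : z c ∈ centralizer (T : Set G) := by
      rw [mem_centralizer_iff]
      intro t ht
      have h4 : z (z⁻¹ t) = t := MulAut.apply_inv_self G z t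
      rw [← h4, ← map_mul, ← map_mul, mem_centralizer_iff.1 hc _ ((inv_mem hzT t).2 ht)]
    have h4 : x.1⁻¹ * z x.1 = c * (z c)⁻¹ := by
      have h5 : z x.1 = (x.1 * c) * (z c)⁻¹ := by rw [← h2]; group
      rw [h5]; group
    have h5 := eq_one_of_central hT (x := x.1⁻¹ * z x.1) (mul_mem (inv_mem x.2) ((hzT x.1).2 x.2))
      (h4 ▸ mul_mem hc (inv_mem h3))
    apply Subtype.ext
    rw [coe_res]
    exact (inv_mul_eq_one.1 h5).symm)
  intro x hx
  have h2 := congrArg Subtype.val (DFunLike.congr_fun h1 (⟨x, hx⟩ : T))
  exact h2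

end Core

section Main

variable {G : Type u} [Group G]

theorem mem_stab_of_char {N : Subgroup G} (h : N.Characteristic) (a : MulAut G) : a ∈ stab N :=
  mem_stab_of_map (characteristic_iff_map_eq.1 h a)

/-- restriction to a characteristic subgroup -/
def resC {N : Subgroup G} (h : N.Characteristic) : MulAut G →* MulAut N :=
  (res N).comp ((MonoidHom.id (MulAut G)).codRestrict (stab N) (mem_stab_of_char h))

theorem coe_resC {N : Subgroup G} (h : N.Characteristic) (a : MulAut G) (x : N) : ((resC h a x : N) : G) = a x.1 := rfl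

/-- action on the quotient by a characteristic subgroup -/
def quoC {N : Subgroup G} [N.Normal] (h : N.Characteristic) : MulAut G →* MulAut (G ⧸ N) where
  toFun a := QuotientGroup.congr N N a (characteristic_iff_map_eq.1 h a)
  map_one' := by
    ext x
    induction x using QuotientGroup.induction_on
    rfl
  map_mul' a b := by
    ext x
    induction x using QuotientGroup.induction_on
    rfl

theorem quoC_mk {N : Subgroup G} [N.Normal] (h : N.Characteristic) (a : MulAut G) (x : G) :
    quoC h a (QuotientGroup.mk x) = QuotientGroup.mk (a x) := rfl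

theorem char_map_subtype {N : Subgroup G} (h : N.Characteristic) {R : Subgroup N} (hR : R.Characteristic) :
    (R.map N.subtype).Characteristic := by
  rw [characteristic_iff_map_le]
  intro a
  rintro _ ⟨_, ⟨x, hx, rfl⟩, rfl⟩
  refine ⟨resC h a x, ?_, rfl⟩
  exact (mem_stab_of_char hR (resC h a) x).2 hx

theorem char_comap_mk {N : Subgroup G} [N.Normal] (h : N.Characteristic) {R : Subgroup (G ⧸ N)}
    (hR : R.Characteristic) : (R.comap (QuotientGroup.mk' N)).Characteristic := by
  rw [characteristic_iff_map_le]
  intro a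
  rintro _ ⟨x, hx, rfl⟩
  change (QuotientGroup.mk (a x) : G ⧸ N) ∈ R
  rw [← quoC_mk h]
  exact (mem_stab_of_char hR (quoC h a) _).2 hx

theorem solv_comap_mk {N : Subgroup G} [N.Normal] (hN : Group.IsSolvable N) {R : Subgroup (G ⧸ N)}
    (hR : Group.IsSolvable R) : Group.IsSolvable (R.comap (QuotientGroup.mk' N)) := by
  have hle : N ≤ R.comap (QuotientGroup.mk' N) := by
    intro x hx
    rw [mem_comap, QuotientGroup.mk'_apply, (QuotientGroup.eq_one_iff x).2 hx]
    exact R.one_mem
  let f : ↥N →* ↥(R.comap (QuotientGroup.mk' N)) := Subgroup.inclusion hle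
  let g : ↥(R.comap (QuotientGroup.mk' N)) →* ↥R := (QuotientGroup.mk' N).subgroupComap R
  refine Group.isSolvable_of_ker_le_range f g ?_
  rintro ⟨x, hx⟩ hxk
  rw [MonoidHom.mem_ker] at hxk
  have h3 : (QuotientGroup.mk' N) x = 1 := congrArg Subtype.val hxk
  rw [QuotientGroup.mk'_apply, QuotientGroup.eq_one_iff] at h3
  exact ⟨⟨x, h3⟩, rfl⟩

variable {r : ℕ} [hr : Fact r.Prime]

/-- **The reduction.** -/
theorem red (n : ℕ) : ∀ (G : Type u) [Group G] [Finite G], Nat.card G = n → SecZP G → ¬ r ∣ Nat.card G →
    ∀ A : Subgroup (MulAut G), IsPGroup r A → ∀ z : MulAut G, (∀ a ∈ A, z * a = a * z) → ∀ m : ℕ, ¬ r ∣ m →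
      z ^ m = 1 → (∀ x ∈ fix A, z x = x) →
      ∃ R : Subgroup G, R.Characteristic ∧ Group.IsSolvable R ∧ ∀ x, x⁻¹ * z x ∈ R := by
  induction n using Nat.strong_induction_on with
  | _ n ih =>
    intro G _ _ hn hS hrG A hA z hza m hm hzm hz
    subst hn
    by_cases hsol : ∃ N : Subgroup G, N.Characteristic ∧ Group.IsSolvable N ∧ N ≠ ⊥
    · obtain ⟨N, hNc, hNs, hNb⟩ := hsol
      have hNn : N.Normal := inferInstance
      have hlt : Nat.card (G ⧸ N) < Nat.card G := by
        have h2 : 1 < Nat.card N := by
          rw [Subgroup.one_lt_card_iff_ne_bot]; exact hNb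
        have h3 := Subgroup.card_eq_card_quotient_mul_card_subgroup N
        have h4 : 0 < Nat.card (G ⧸ N) := Nat.card_pos
        nlinarith
      obtain ⟨R, hRc, hRs, hR⟩ := ih _ hlt (G ⧸ N) rfl (hS.quo N)
        (fun h => hrG (h.trans (Subgroup.card_quotient_dvd_card N))) (A.map (quoC hNc)) (hA.map _) (quoC hNc z)
        (by
          rintro _ ⟨a, ha, rfl⟩
          rw [← map_mul, ← map_mul, hza a ha]) m hm (by rw [← map_pow, hzm, map_one]) (by
          intro x hx
          induction x using QuotientGroup.induction_on with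
          | H g =>
            obtain ⟨y, hy, hgy⟩ := exists_fixed_coset hrG hA N
              (fun a _ x hx => (mem_stab_of_char hNc a x).2 hx) g (by
              intro a ha
              have h1 := hx _ ⟨a, ha, rfl⟩
              rw [quoC_mk, eq_comm, QuotientGroup.eq] at h1
              exact h1)
            have h1 : (QuotientGroup.mk g : G ⧸ N) = QuotientGroup.mk y := by
              rw [QuotientGroup.eq]; exact hgy
            rw [h1, quoC_mk, hz y hy])
      refine ⟨R.comap (QuotientGroup.mk' N), char_comap_mk hNc hRc, solv_comap_mk hNs hRs, ?_⟩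
      intro x
      exact hR (QuotientGroup.mk x)
    · push Not at hsol
      -- characteristic subgroups
      have hch : ∀ N : Subgroup G, N.Characteristic → N ≠ ⊤ → ∀ x ∈ N, z x = x := by
        intro N hNc hNt x hx
        have hlt : Nat.card N < Nat.card G :=
          lt_of_le_of_ne N.card_le_card_group fun h => hNt (Subgroup.eq_top_of_card_eq N h)
        obtain ⟨R, hRc, hRs, hR⟩ := ih _ hlt N rfl (hS.sub N)
          (fun h => hrG (h.trans (Subgroup.card_subgroup_dvd_card N))) (A.map (resC hNc)) (hA.map _) (resC hNc z)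
          (by
            rintro _ ⟨a, ha, rfl⟩
            rw [← map_mul, ← map_mul, hza a ha]) m hm (by rw [← map_pow, hzm, map_one]) (by
            intro x hx
            apply Subtype.ext
            rw [coe_resC]
            apply hz
            intro a ha
            exact congrArg Subtype.val (hx _ ⟨a, ha, rfl⟩))
        have h1 : R.map N.subtype = ⊥ := by
          by_contra h
          exact h (hsol _ (char_map_subtype hNc hRc)
            (Group.isSolvable_of_surjective (f := N.subtype.subgroupMap R) (N.subtype.subgroupMap_surjective R)))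
        have h2 : x⁻¹ * z x ∈ R.map N.subtype := ⟨_, hR ⟨x, hx⟩, rfl⟩
        rw [h1, mem_bot] at h2
        exact (inv_mul_eq_one.1 h2).symm
      by_cases hcs : ∃ N : Subgroup G, N.Characteristic ∧ N ≠ ⊥ ∧ N ≠ ⊤
      · obtain ⟨N, hNc, hNb, hNt⟩ := hcs
        have hNn : N.Normal := inferInstance
        have hCc : (centralizer (N : Set G)).Characteristic := inferInstance
        have hCn : (centralizer (N : Set G)).Normal := inferInstance
        have hCt : centralizer (N : Set G) ≠ ⊤ := by
          intro h
          apply hNb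
          apply hsol N hNc
          refine Group.isSolvable_of_comm fun a b => Subtype.ext ?_
          have h1 : (b : G) ∈ centralizer (N : Set G) := by rw [h]; trivial
          exact mem_centralizer_iff.1 h1 a a.2
        refine ⟨⊥, inferInstance, inferInstance, ?_⟩
        intro x
        have key : ∀ M : Subgroup G, M.Characteristic → M.Normal → M ≠ ⊤ → x⁻¹ * z x ∈ centralizer (M : Set G) := by
          intro M hM hMn hMt
          rw [mem_centralizer_iff]
          intro t ht
          have h1 := hch M hM hMt (x * t * x⁻¹) (hMn.conj_mem t ht x)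
          rw [map_mul, map_mul, map_inv, hch M hM hMt t ht] at h1
          have h2 : z x * t = x * t * x⁻¹ * z x := by rw [← h1]; group
          calc t * (x⁻¹ * z x) = x⁻¹ * (x * t * x⁻¹ * z x) := by group
            _ = x⁻¹ * z x * t := by rw [← h2]; group
        have h1 := key N hNc hNn hNt
        have h2 := key _ hCc hCn hCt
        have h3 : centralizer (N : Set G) ⊓ centralizer ((centralizer (N : Set G) : Subgroup G) : Set G) = ⊥ := by
          apply hsol
          · rw [characteristic_iff_map_le]
            intro a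
            rintro _ ⟨y, ⟨hy1, hy2⟩, rfl⟩
            exact ⟨(mem_stab_of_char hCc a y).2 hy1,
              (mem_stab_of_char (inferInstance : (centralizer
                ((centralizer (N : Set G) : Subgroup G) : Set G)).Characteristic) a y).2 hy2⟩
          · refine Group.isSolvable_of_comm fun a b => Subtype.ext ?_
            exact mem_centralizer_iff.1 b.2.2 a a.2.1
        have h4 : x⁻¹ * z x ∈ centralizer (N : Set G) ⊓ centralizer ((centralizer (N : Set G) : Subgroup G) : Set G) :=
          ⟨h1, h2⟩
        rwa [h3] at h4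
      · push Not at hcs
        by_cases hna : ∀ a b : G, a * b = b * a
        · exact ⟨⊤, inferInstance, Group.isSolvable_of_comm fun a b => Subtype.ext (hna a b), fun _ => mem_top _⟩
        · have hmin : ∀ N : Subgroup G, N.Normal → Stab (⊤ : Subgroup (MulAut G)) N → N = ⊥ ∨ N = ⊤ := by
            intro N _ hst
            by_contra h
            push Not at h
            apply h.2
            apply hcs N _ h.1
            rw [characteristic_iff_map_le]
            intro a
            rintro _ ⟨x, hx, rfl⟩
            exact hst a (mem_top _) x hx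
          obtain ⟨T₀, hT₀⟩ := exists_nsim hna hmin
          have htop : (sSup (NSim G) : Subgroup G) = ⊤ := by
            apply hcs
            · rw [characteristic_iff_map_le]
              intro a
              rw [sSup_eq_iSup, Subgroup.map_iSup]
              refine iSup_le fun T => ?_
              rw [Subgroup.map_iSup]
              refine iSup_le fun hT => ?_
              rw [← sSup_eq_iSup]
              exact le_sSup (NSim.map hT a)
            · intro h
              apply hT₀.2.2
              have h1 : T₀ ≤ ⊥ := h ▸ le_sSup hT₀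
              intro a ha b hb
              rw [mem_bot.1 (h1 ha), mem_bot.1 (h1 hb)]
          refine ⟨⊥, inferInstance, inferInstance, ?_⟩
          intro x
          let F : Subgroup G :=
            { carrier := {x | z x = x}
              one_mem' := map_one z
              mul_mem' := fun {x y} (hx : z x = x) (hy : z y = y) => by
                change z (x * y) = x * y
                rw [map_mul, hx, hy]
              inv_mem' := fun {x} (hx : z x = x) => by
                change z x⁻¹ = x⁻¹
                rw [map_inv, hx] }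
          have h1 : sSup (NSim G) ≤ F := by
            refine sSup_le fun T hT => ?_
            intro y hy
            have hTs := hT.2.1
            have hZ : ZP T := (hS.sub T).self (fun h => hT.2.2 fun a ha b hb => congrArg Subtype.val (h ⟨a, ha⟩ ⟨b, hb⟩))
            exact core hT hZ hrG hA z hza m hm hzm hz y hy
          have h2 : x ∈ F := h1 (by rw [htop]; trivial)
          have h3 : z x = x := h2
          rw [h3, inv_mul_cancel]
          exact one_mem _

end Main

end Cfsg.Agent.H255.Red
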